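import Cfsg.Agent.H3.BrauerD
import Cfsg.Agent.H3.BrauerE
import Cfsg.Agent.H3.Prod
import Cfsg.Agent.H3.Clifford

/-!
# Brauer's characterization with algebraic integer coefficients (helper3)
-/

set_option autoImplicit false
set_option linter.style.haveILetI false
set_option linter.unusedSimpArgs false
set_option linter.unusedSectionVars false
set_option linter.unusedVariables false
open Cfsg
open scoped ComplexConjugate commutatorElement

namespace Cfsg.Agent.H3

universe u v w

section

variable {G : Type u} [Group G] [Fintype G]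

/-- integrality of inner products can be checked on elementary subgroups -/
theorem aig_of_restrict {f : G → ℂ} (hf : IsClassFunction G f)
    (hE : ∀ (E : Subgroup G) [Fintype E] (p : ℕ), p.Prime → IsElementary p E → ∀ φ : E → ℂ,
      IsCharacter E φ → IsIntegral ℤ (classInner (fun e : E => f e) φ)) {χ : G → ℂ}
    (hχ : IsCharacter G χ) : IsIntegral ℤ (classInner f χ) := by
  have key : ∀ g ∈ indSpan G (fun E => ∃ p : ℕ, p.Prime ∧ IsElementary p E),
      IsIntegral ℤ (classInner f (g * χ)) := by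
    intro g hg
    induction hg using AddSubgroup.closure_induction with
    | mem g hg =>
      obtain ⟨E, θ, ⟨p, hp, hEp⟩, hθ, rfl⟩ := hg
      haveI := Fintype.ofFinite E
      rw [← indFun_mul_restrict E θ (char_classFun hχ), frobenius_reciprocity' E _ hf]
      exact hE E p hp hEp _ (isChar_mul hθ (isChar_restrict E hχ))
    | zero =>
      rw [zero_mul]
      have : classInner f (0 : G → ℂ) = 0 := by simp [classInner]
      rw [this]; exact isIntegral_zero
    | add a b _ _ ha hb => rw [add_mul, classInner_add_right]; exact ha.add hb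
    | neg a _ ha => rw [neg_mul, classInner_neg_right]; exact ha.neg
  have h1 := key _ brauer_one_mem
  have h2 : (fun _ => (1 : ℂ)) * χ = χ := by ext; simp
  rwa [h2] at h1

end

section prod

variable {A : Type u} [Group A] [Fintype A] {B : Type v} [Group B] [Fintype B]

/-- functions on `A × B` depending only on the second coordinate, divisible by `|B|` -/
theorem aig_prod [Fintype (A × B)] {F : B → ℂ} (hF : ∀ y, ∃ k : ℂ, IsIntegral ℤ k ∧
    F y = Nat.card B * k) {φ : A × B → ℂ} (hφ : IsCharacter (A × B) φ) :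
    IsIntegral ℤ (classInner (fun x : A × B => F x.2) φ) := by
  classical
  haveI := Fintype.ofFinite (IrrCharacter (A × B))
  obtain ⟨m, -, hm⟩ := char_expand hφ
  rw [hm, classInner_sum_right]
  refine IsIntegral.sum _ fun ψ _ => ?_
  rw [classInner_smul_right]
  refine IsIntegral.mul (by
    rw [Complex.conj_natCast]; exact isIntegral_algebraMap (R := ℤ) (x := (m ψ : ℤ))) ?_
  obtain ⟨α, β, hα, hβ, hψ⟩ := (isIrr_prod_iff (ψ : A × B → ℂ)).1 ψ.2
  rw [hψ]
  have h1 : (fun x : A × B => F x.2) = fun x : A × B => (fun _ => (1 : ℂ)) x.1 * F x.2 := by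
    ext x; simp
  rw [h1, classInner_prod (fun _ => (1 : ℂ)) α F β]
  refine IsIntegral.mul ?_ ?_
  · by_cases h : (fun _ : A => (1 : ℂ)) = α
    · rw [← h, classInner_self_of_irr isIrr_one]; exact isIntegral_one
    · rw [classInner_of_irr_ne isIrr_one hα h]; exact isIntegral_zero
  · choose k hk hFk using hF
    rw [classInner, Finset.mul_sum]
    refine IsIntegral.sum _ fun y _ => ?_
    rw [hFk y, ← mul_assoc, ← mul_assoc, inv_mul_cancel₀ (by
      exact_mod_cast Nat.card_pos.ne'), one_mul]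
    exact (hk y).mul (isIntegral_conj (char_isIntegral (irr_isChar hβ) y))

end prod

section split

variable {E : Type u} [Group E] [Finite E] {P Q : Subgroup E}

/-- the product decomposition -/
noncomputable def splitEquiv (hPQ : P ⊔ Q = ⊤) (hcomm : ∀ x ∈ P, ∀ y ∈ Q, x * y = y * x)
    (hcop : Nat.Coprime (Nat.card P) (Nat.card Q)) : P × Q ≃* E :=
  MulEquiv.ofBijective ({
    toFun := fun x => (x.1 : E) * x.2
    map_one' := by simp
    map_mul' := by
      rintro ⟨a, b⟩ ⟨c, d⟩
      have h1 := hcomm c c.2 b b.2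
      show ((a : E) * c) * ((b : E) * d) = ((a : E) * b) * (c * d)
      calc ((a : E) * c) * ((b : E) * d) = a * (c * b) * d := by group
        _ = a * (b * c) * d := by rw [h1]
        _ = _ := by group } : P × Q →* E) (by
    constructor
    · rw [injective_iff_map_eq_one]
      rintro ⟨a, b⟩ h
      have h1 : (a : E) * b = 1 := h
      have h2 : (a : E) = (b : E)⁻¹ := mul_eq_one_iff_eq_inv.1 h1
      have h3 : (a : E) ∈ P ⊓ Q := ⟨a.2, by rw [h2]; exact Q.inv_mem b.2⟩
      have h4 : P ⊓ Q = ⊥ := (Subgroup.disjoint_of_coprime_natCard hcop).eq_bot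
      rw [h4, Subgroup.mem_bot] at h3
      have h5 : (b : E) = 1 := by rw [h3, one_mul] at h1; exact h1
      exact Prod.ext (Subtype.ext h3) (Subtype.ext h5)
    · intro e
      obtain ⟨x, hx, y, hy, rfl⟩ := split_exists hPQ hcomm e
      exact ⟨(⟨x, hx⟩, ⟨y, hy⟩), rfl⟩)

theorem splitEquiv_apply (hPQ : P ⊔ Q = ⊤) (hcomm : ∀ x ∈ P, ∀ y ∈ Q, x * y = y * x)
    (hcop : Nat.Coprime (Nat.card P) (Nat.card Q)) (x : P × Q) :
    splitEquiv hPQ hcomm hcop x = (x.1 : E) * x.2 := rfl

end split

section main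

variable {G : Type u} [Group G]

/-- uniqueness of the decomposition into `π`- and `π'`-parts -/
theorem part_unique [Finite G] {m n : ℕ} (hmn : Nat.card G = m * n) (hcop : Nat.Coprime m n)
    {x y u v : G} (hxy : Commute x y) (huv : Commute u v) (hx : Nat.Coprime (orderOf x) n)
    (hy : Nat.Coprime (orderOf y) m) (hu : Nat.Coprime (orderOf u) n)
    (hv : Nat.Coprime (orderOf v) m) (h : x * y = u * v) : y = v := by
  obtain ⟨k, hk1, hk2⟩ := Nat.chineseRemainder hcop 0 1
  have hm : ∀ z : G, Nat.Coprime (orderOf z) n → z ^ k = 1 := by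
    intro z hz
    have h1 : orderOf z ∣ m := by
      have h2 : orderOf z ∣ m * n := by rw [← hmn]; exact orderOf_dvd_natCard z
      exact hz.dvd_of_dvd_mul_right h2
    rw [← orderOf_dvd_iff_pow_eq_one]
    exact h1.trans ((Nat.modEq_zero_iff_dvd).1 hk1)
  have hn : ∀ z : G, Nat.Coprime (orderOf z) m → z ^ k = z := by
    intro z hz
    have h1 : orderOf z ∣ n := by
      have h2 : orderOf z ∣ m * n := by rw [← hmn]; exact orderOf_dvd_natCard z
      exact hz.dvd_of_dvd_mul_left h2
    conv_rhs => rw [← pow_one z]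
    rw [pow_eq_pow_iff_modEq]
    exact hk2.of_dvd h1
  have h1 := congrArg (· ^ k) h
  simp only [hxy.mul_pow, huv.mul_pow, hm x hx, hm u hu, hn y hy, hn v hv, one_mul] at h1
  exact h1

/-- membership in the `v`-section -/
def InSec (m n : ℕ) (g x : G) : Prop :=
  ∃ v : G, IsConj v g ∧ (∃ u : G, x = u * v ∧ Commute u v ∧ Nat.Coprime (orderOf u) n ∧
    Nat.Coprime (orderOf v) m)

theorem inSec_conj {m n : ℕ} {g x : G} (h : G) (hx : InSec m n g x) :
    InSec m n g (h * x * h⁻¹) := by
  obtain ⟨v, hv, u, rfl, huv, hu, hv'⟩ := hx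
  have hoc : ∀ z : G, orderOf (h * z * h⁻¹) = orderOf z := fun z =>
    orderOf_injective (MulAut.conj h).toMonoidHom (MulAut.conj h).injective z
  refine ⟨h * v * h⁻¹, ?_, h * u * h⁻¹, by group, ?_, by rw [hoc]; exact hu, by rw [hoc]; exact hv'⟩
  · exact (isConj_iff.2 ⟨h, rfl⟩).symm.trans hv
  · show h * u * h⁻¹ * (h * v * h⁻¹) = h * v * h⁻¹ * (h * u * h⁻¹)
    have := huv.eq
    calc h * u * h⁻¹ * (h * v * h⁻¹) = h * (u * v) * h⁻¹ := by group
      _ = h * (v * u) * h⁻¹ := by rw [this]
      _ = _ := by group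

theorem inSec_conj_iff {m n : ℕ} {g x : G} (h : G) :
    InSec m n g (h * x * h⁻¹) ↔ InSec m n g x := by
  refine ⟨fun h1 => ?_, inSec_conj h⟩
  have := inSec_conj h⁻¹ h1
  have h2 : h⁻¹ * (h * x * h⁻¹) * h⁻¹⁻¹ = x := by group
  rwa [h2] at this

variable [Fintype G]

/-- S0875 -/
theorem section_integral {m n : ℕ} (hmn : Nat.card G = m * n) (hcop : Nat.Coprime m n) {g : G}
    {ϑ : G → ℂ} (h1 : ∀ x, InSec m n g x → ϑ x = n) (h0 : ∀ x, ¬ InSec m n g x → ϑ x = 0) :
    IsClassFunction G ϑ ∧ ∀ χ : G → ℂ, IsCharacter G χ → IsIntegral ℤ (classInner ϑ χ) := by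
  classical
  have hcl : IsClassFunction G ϑ := by
    intro x h
    by_cases hx : InSec m n g x
    · rw [h1 x hx, h1 _ (inSec_conj h hx)]
    · rw [h0 x hx, h0 _ (fun h2 => hx ((inSec_conj_iff h).1 h2))]
  refine ⟨hcl, fun χ hχ => aig_of_restrict hcl ?_ hχ⟩
  intro E _ p hp hEp φ hφ
  have hEG : Nat.card E ∣ m * n := by rw [← hmn]; exact E.card_subgroup_dvd_card
  have hab : Nat.card E = Nat.gcd (Nat.card E) m * Nat.gcd (Nat.card E) n := by
    rw [← Nat.Coprime.gcd_mul _ hcop]
    exact (Nat.gcd_eq_left hEG).symm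
  have hc : Nat.Coprime (Nat.gcd (Nat.card E) m) (Nat.gcd (Nat.card E) n) :=
    Nat.Coprime.coprime_dvd_left (Nat.gcd_dvd_right _ _)
      (Nat.Coprime.coprime_dvd_right (Nat.gcd_dvd_right _ _) hcop)
  obtain ⟨P, Q, hP, hQ, hPQ, hcomm⟩ := elementary_split hp hEp hab hc
  have hcop' : Nat.Coprime (Nat.card P) (Nat.card Q) := by rw [hP, hQ]; exact hc
  let e := splitEquiv hPQ hcomm hcop'
  haveI := Fintype.ofFinite P
  haveI := Fintype.ofFinite Q
  haveI := Fintype.ofFinite (P × Q)
  rw [← classInner_comp_equiv e]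
  have hval : ∀ x : P × Q, ϑ ((e x : E) : G) = ϑ ((x.2 : E) : G) := by
    rintro ⟨x, y⟩
    have hex : ((e (x, y) : E) : G) = ((x : E) : G) * ((y : E) : G) := rfl
    have hx : Nat.Coprime (orderOf ((x : E) : G)) n := by
      have h2 : orderOf ((x : E) : G) ∣ Nat.card P := by
        rw [Subgroup.orderOf_coe, Subgroup.orderOf_coe]; exact orderOf_dvd_natCard x
      rw [hP] at h2
      exact Nat.Coprime.coprime_dvd_left (h2.trans (Nat.gcd_dvd_right _ _)) hcop
    have hy : Nat.Coprime (orderOf ((y : E) : G)) m := by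
      have h2 : orderOf ((y : E) : G) ∣ Nat.card Q := by
        rw [Subgroup.orderOf_coe, Subgroup.orderOf_coe]; exact orderOf_dvd_natCard y
      rw [hQ] at h2
      exact Nat.Coprime.coprime_dvd_left (h2.trans (Nat.gcd_dvd_right _ _)) hcop.symm
    have hxy : Commute ((x : E) : G) ((y : E) : G) :=
      congrArg (fun z : E => (z : G)) (hcomm x x.2 y y.2)
    have hone : Nat.Coprime (orderOf (1 : G)) n := by rw [orderOf_one]; exact Nat.coprime_one_left n
    have hiff : ∀ a : G, Commute a ((y : E) : G) → Nat.Coprime (orderOf a) n →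
        (InSec m n g (a * ((y : E) : G)) ↔ IsConj ((y : E) : G) g) := by
      intro a ha ha'
      constructor
      · rintro ⟨v, hv, u, huv, hcuv, hu, hv'⟩
        rw [part_unique hmn hcop ha hcuv ha' hy hu hv' huv]
        exact hv
      · intro h2
        exact ⟨_, h2, a, rfl, ha, ha', hy⟩
    rw [hex]
    show ϑ (((x : E) : G) * ((y : E) : G)) = ϑ ((y : E) : G)
    have h3 := hiff _ hxy hx
    have h4 := hiff 1 (Commute.one_left _) hone
    rw [one_mul] at h4
    by_cases h5 : IsConj ((y : E) : G) g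
    · rw [h1 _ (h3.2 h5), h1 _ (h4.2 h5)]
    · rw [h0 _ (fun h => h5 (h3.1 h)), h0 _ (fun h => h5 (h4.1 h))]
  have hfun : (fun x : P × Q => ϑ ((e x : E) : G)) = fun x : P × Q =>
      (fun y : Q => ϑ ((y : E) : G)) x.2 := funext hval
  rw [hfun]
  refine aig_prod (A := P) (F := fun y : Q => ϑ ((y : E) : G)) (φ := fun x => φ (e x))
    (fun y => ?_) (isChar_comp hφ e.toMonoidHom)
  obtain ⟨k, hk⟩ : Nat.card Q ∣ n := by rw [hQ]; exact Nat.gcd_dvd_right _ _
  by_cases h5 : InSec m n g ((y : E) : G)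
  · refine ⟨k, isIntegral_algebraMap (R := ℤ) (x := (k : ℤ)), ?_⟩
    rw [h1 _ h5]
    exact_mod_cast hk
  · exact ⟨0, isIntegral_zero, by rw [h0 _ h5, mul_zero]⟩

end main

end Cfsg.Agent.H3
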