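import Cfsg.Agent.H3.BrauerF
import Cfsg.Agent.H3.Counting
import Cfsg.Agent.H27.Kernel

/-!
# Brauer's normal complement theorem (helper3)
-/

set_option autoImplicit false
set_option linter.style.haveILetI false
set_option linter.unusedSimpArgs false
set_option linter.unusedSectionVars false
set_option linter.unusedVariables false
open Cfsg
open scoped ComplexConjugate commutatorElement

namespace Cfsg.Agent.H3

universe u v w

/-- Frobenius: the number of elements of order prime to `n` is a multiple of `m` -/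
theorem card_regular_ge {C : Type u} [Group C] [Finite C] {m n : ℕ} (hmn : Nat.card C = m * n)
    (hcop : Nat.Coprime m n) : m ≤ Nat.card {x : C // Nat.Coprime (orderOf x) n} := by
  classical
  haveI := Fintype.ofFinite C
  have hm0 : m ≠ 0 := by rintro rfl; rw [zero_mul] at hmn; exact Nat.card_pos.ne' hmn
  have hn0 : n ≠ 0 := by rintro rfl; rw [mul_zero] at hmn; exact Nat.card_pos.ne' hmn
  let ϑ : C → ℂ := fun z => if InSec m n 1 z then (n : ℂ) else 0
  obtain ⟨hcl, hint⟩ := section_integral (g := (1 : C)) (ϑ := ϑ) hmn hcop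
    (fun z hz => if_pos hz) (fun z hz => if_neg hz)
  have hiff : ∀ z : C, InSec m n 1 z ↔ Nat.Coprime (orderOf z) n := by
    intro z
    constructor
    · rintro ⟨v, hv, u, rfl, huv, hu, -⟩
      have : v = 1 := (isConj_one_left.1 hv)
      rw [this, mul_one]; exact hu
    · intro hz
      exact ⟨1, IsConj.refl 1, z, by simp, Commute.one_right _, hz, by
        rw [orderOf_one]; exact Nat.coprime_one_left m⟩
  have h1 := hint _ (irr_isChar isIrr_one)
  have h2 : classInner ϑ (fun _ => 1) =
      ((n * Nat.card {x : C // Nat.Coprime (orderOf x) n} : ℕ) : ℂ) / (Nat.card C : ℂ) := by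
    rw [classInner]
    simp only [map_one, mul_one]
    have h3 : ∑ z : C, ϑ z = n * Nat.card {x : C // Nat.Coprime (orderOf x) n} := by
      have h4 : ∀ z, ϑ z = if Nat.Coprime (orderOf z) n then (n : ℂ) else 0 := by
        intro z
        show (if InSec m n 1 z then (n : ℂ) else 0) = _
        by_cases hz : Nat.Coprime (orderOf z) n
        · rw [if_pos hz, if_pos ((hiff z).2 hz)]
        · rw [if_neg hz, if_neg (fun h => hz ((hiff z).1 h))]
      rw [Finset.sum_congr rfl fun z _ => h4 z, ← Finset.sum_filter, Finset.sum_const,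
        nsmul_eq_mul, Nat.card_eq_fintype_card, Fintype.card_subtype, mul_comm]
    rw [h3, inv_mul_eq_div]
    push_cast; rfl
  rw [h2] at h1
  have h3 := nat_dvd_of_isIntegral Nat.card_pos.ne' h1
  rw [hmn, mul_comm m n] at h3
  have h4 : m ∣ Nat.card {x : C // Nat.Coprime (orderOf x) n} :=
    Nat.dvd_of_mul_dvd_mul_left (Nat.pos_of_ne_zero hn0) h3
  haveI : Nonempty {x : C // Nat.Coprime (orderOf x) n} :=
    ⟨⟨1, by rw [orderOf_one]; exact Nat.coprime_one_left n⟩⟩
  exact Nat.le_of_dvd Nat.card_pos h4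

section comp

variable {G : Type u} [Group G] [Finite G] {H : Subgroup G}

/-- parts of an element -/
theorem exists_parts {m n : ℕ} (hmn : Nat.card G = m * n) (hcop : Nat.Coprime m n) (x : G) :
    ∃ u v : G, x = u * v ∧ Commute u v ∧ Nat.Coprime (orderOf u) n ∧
      Nat.Coprime (orderOf v) m := by
  obtain ⟨k, hk1, hk2⟩ := Nat.chineseRemainder hcop 0 1
  obtain ⟨l, hl1, hl2⟩ := Nat.chineseRemainder hcop 1 0
  have hx : orderOf x ∣ m * n := by rw [← hmn]; exact orderOf_dvd_natCard x
  refine ⟨x ^ l, x ^ k, ?_, (Commute.refl x).pow_pow l k, ?_, ?_⟩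
  · rw [← pow_add]
    conv_lhs => rw [← pow_one x]
    rw [pow_eq_pow_iff_modEq]
    refine Nat.ModEq.of_dvd hx ((Nat.modEq_and_modEq_iff_modEq_mul hcop).1 ⟨?_, ?_⟩)
    · exact (hl1.add hk1).symm
    · have := (hl2.add hk2).symm
      exact this
  · have h1 : (x ^ l) ^ m = 1 := by
      rw [← pow_mul, ← orderOf_dvd_iff_pow_eq_one]
      refine hx.trans ?_
      rw [mul_comm l m]
      exact Nat.mul_dvd_mul_left m ((Nat.modEq_zero_iff_dvd).1 hl2)
    exact Nat.Coprime.coprime_dvd_left (orderOf_dvd_of_pow_eq_one h1) hcop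
  · have h1 : (x ^ k) ^ n = 1 := by
      rw [← pow_mul, ← orderOf_dvd_iff_pow_eq_one]
      refine hx.trans ?_
      exact Nat.mul_dvd_mul_right ((Nat.modEq_zero_iff_dvd).1 hk1) n
    exact Nat.Coprime.coprime_dvd_left (orderOf_dvd_of_pow_eq_one h1) hcop.symm

theorem isElementary_zpowers (g : G) : ∃ p : ℕ, p.Prime ∧ IsElementary p (Subgroup.zpowers g) := by
  obtain ⟨p, hpg, hp⟩ := Nat.exists_infinite_primes (orderOf g + 1)
  refine ⟨p, hp, ⟨g, Subgroup.mem_zpowers g⟩, ?_, ?_, 0, ?_⟩
  · rw [Subgroup.mem_center_iff]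
    intro y
    letI := (inferInstance : IsCyclic (Subgroup.zpowers g)).commGroup
    exact mul_comm _ _
  · rw [Subgroup.orderOf_mk, Nat.coprime_comm, Nat.Prime.coprime_iff_not_dvd hp]
    intro h
    have := Nat.le_of_dvd (orderOf_pos g) h
    omega
  · rw [pow_zero, Subgroup.index_eq_one, eq_top_iff]
    rintro ⟨y, k, rfl⟩ -
    exact ⟨k, rfl⟩

end comp

section main

variable {G : Type u} [Group G] [Finite G] {H : Subgroup G}

/-- centralizers in a Hall subgroup controlling fusion -/
theorem hall_centralizer (hHall : Nat.Coprime (Nat.card H) H.index)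
    (hfus : ∀ x ∈ H, ∀ y ∈ H, IsConj x y → ∃ h ∈ H, h * x * h⁻¹ = y)
    (helem : ∀ (E : Subgroup G) (p : ℕ), p.Prime → IsElementary p E →
      Nat.card E ∣ Nat.card H → ∃ g : G, E.map (MulAut.conj g).toMonoidHom ≤ H)
    {h : G} (hh : h ∈ H) :
    Nat.gcd (Nat.card (Subgroup.centralizer ({h} : Set G))) (Nat.card H) =
      Nat.card ↥(H ⊓ Subgroup.centralizer ({h} : Set G)) := by
  apply Nat.dvd_antisymm
  · rw [Nat.dvd_iff_prime_pow_dvd_dvd]
    intro p k hp hpk
    have hp : p.Prime := hp
    haveI : Fact p.Prime := ⟨hp⟩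
    rcases Nat.eq_zero_or_pos k with hk0 | hk0
    · rw [hk0, pow_zero]; exact one_dvd _
    have hpH : p ∣ Nat.card H :=
      (dvd_pow_self p hk0.ne').trans (hpk.trans (Nat.gcd_dvd_right _ _))
    set C := Subgroup.centralizer ({h} : Set G) with hC
    obtain ⟨P₁⟩ : Nonempty (Sylow p C) := inferInstance
    have hkP : p ^ k ∣ Nat.card P₁ := P₁.pow_dvd_card_of_pow_dvd_card (hpk.trans (Nat.gcd_dvd_left _ _))
    let P : Subgroup G := (P₁ : Subgroup C).map C.subtype
    have hPcard : Nat.card P = Nat.card P₁ :=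
      Nat.card_congr ((P₁ : Subgroup C).equivMapOfInjective C.subtype C.subtype_injective).symm.toEquiv
    have hPC : P ≤ C := Subgroup.map_subtype_le _
    have hPp : IsPGroup p P := P₁.isPGroup'.map C.subtype
    -- the elementary subgroup
    obtain ⟨a, r, hr, har⟩ := Nat.exists_eq_pow_mul_and_not_dvd (orderOf_pos h).ne' p hp.ne_one
    set x := h ^ p ^ a with hx
    have hxr : orderOf x = r := by
      rw [hx, orderOf_pow' h (pow_ne_zero _ hp.ne_zero), har, Nat.gcd_eq_right (Dvd.intro _ rfl),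
        Nat.mul_div_cancel_left _ (pow_pos hp.pos _)]
    have hPh : ∀ y ∈ P, y * h = h * y := fun y hy =>
      Subgroup.mem_centralizer_singleton_iff.1 (hPC hy)
    let f : P × Subgroup.zpowers h →* G := {
      toFun := fun y => (y.1 : G) * y.2
      map_one' := by simp
      map_mul' := by
        rintro ⟨c, d⟩ ⟨c', d'⟩
        have h1 : (c' : G) * d = d * c' := by
          obtain ⟨i, hi⟩ := d.2
          have hi' : h ^ i = (d : G) := hi
          rw [← hi']
          exact ((show Commute (c' : G) h from hPh c' c'.2).zpow_right i).eq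
        show ((c : G) * c') * ((d : G) * d') = ((c : G) * d) * (c' * d')
        calc ((c : G) * c') * ((d : G) * d') = c * (c' * d) * d' := by group
          _ = c * (d * c') * d' := by rw [h1]
          _ = _ := by group }
    let E : Subgroup G := f.range
    have hPE : ∀ y ∈ P, y ∈ E := fun y hy => ⟨(⟨y, hy⟩, 1), by
      show y * ((1 : Subgroup.zpowers h) : G) = y; simp⟩
    have hhE : h ∈ E := ⟨(1, ⟨h, Subgroup.mem_zpowers h⟩), by
      show ((1 : P) : G) * h = h; simp⟩
    have hcomm : ∀ e ∈ E, e * h = h * e := by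
      rintro _ ⟨⟨c, d⟩, rfl⟩
      obtain ⟨i, hi⟩ := d.2
      have hi' : h ^ i = (d : G) := hi
      show (c : G) * d * h = h * (c * d)
      rw [← hi']
      have h1 : Commute ((c : G) * h ^ i) h :=
        (show Commute (c : G) h from hPh c c.2).mul_left ((Commute.refl h).zpow_left i)
      exact h1.eq
    have hxE : x ∈ E := E.pow_mem hhE _
    have hxcen : (⟨x, hxE⟩ : E) ∈ Subgroup.center E := by
      rw [Subgroup.mem_center_iff]
      intro e
      apply Subtype.ext
      show (e : G) * x = x * e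
      exact ((show Commute (e : G) h from hcomm e e.2).pow_right (p ^ a)).eq
    obtain ⟨b, hb⟩ := IsPGroup.iff_card.1 hPp
    have hXcard : Nat.card (Subgroup.zpowers (⟨x, hxE⟩ : E)) = r := by
      rw [Nat.card_zpowers, Subgroup.orderOf_mk, hxr]
    have hr0 : 0 < r := Nat.pos_of_ne_zero (by rintro rfl; exact hr (dvd_zero p))
    have hEcard : Nat.card E ∣ p ^ b * (p ^ a * r) := by
      have h1 := Subgroup.card_range_dvd f
      rwa [Nat.card_prod, hb, Nat.card_zpowers, har] at h1
    have hcardE := (Subgroup.zpowers (⟨x, hxE⟩ : E)).card_mul_index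
    have hindex : ∃ j : ℕ, (Subgroup.zpowers (⟨x, hxE⟩ : E)).index = p ^ j := by
      rw [← hcardE, hXcard, show p ^ b * (p ^ a * r) = r * (p ^ b * p ^ a) by ring] at hEcard
      have h1 := Nat.dvd_of_mul_dvd_mul_left hr0 hEcard
      rw [← pow_add] at h1
      obtain ⟨j, -, hj⟩ := (Nat.dvd_prime_pow hp).1 h1
      exact ⟨j, hj⟩
    have hcopr : Nat.Coprime r p := by
      rw [Nat.coprime_comm, Nat.Prime.coprime_iff_not_dvd hp]; exact hr
    have hEel : IsElementary p E := ⟨⟨x, hxE⟩, hxcen, by
      rw [Subgroup.orderOf_mk, hxr]; exact hcopr, hindex⟩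
    obtain ⟨j, hj⟩ := hindex
    rw [hXcard, hj] at hcardE
    have hEH : Nat.card E ∣ Nat.card H := by
      rw [← hcardE]
      apply Nat.Coprime.mul_dvd_of_dvd_of_dvd (hcopr.pow_right j)
      · have h1 : orderOf h ∣ Nat.card H := by
          rw [← Subgroup.orderOf_mk h hh]; exact orderOf_dvd_natCard _
        rw [har] at h1
        exact (Dvd.intro_left _ rfl).trans h1
      · have h1 : p ^ j ∣ Nat.card H * H.index := by
          rw [H.card_mul_index]
          exact (Dvd.intro_left _ hcardE).trans E.card_subgroup_dvd_card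
        refine Nat.Coprime.dvd_of_dvd_mul_right ?_ h1
        exact (Nat.Coprime.coprime_dvd_left hpH hHall).pow_left j
    obtain ⟨g, hg⟩ := helem E p hp hEel hEH
    have hgE : ∀ e ∈ E, g * e * g⁻¹ ∈ H := fun e he => hg ⟨e, he, rfl⟩
    obtain ⟨k', hk', hkh⟩ := hfus _ (hgE h hhE) h hh (isConj_iff.2 ⟨g, rfl⟩).symm
    have hle : P.map (MulAut.conj (k' * g)).toMonoidHom ≤ H ⊓ C := by
      rintro _ ⟨y, hy, rfl⟩
      have e1 : (MulAut.conj (k' * g)).toMonoidHom y = k' * (g * y * g⁻¹) * k'⁻¹ := by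
        show k' * g * y * (k' * g)⁻¹ = _
        group
      rw [e1]
      refine ⟨H.mul_mem (H.mul_mem hk' (hgE y (hPE y hy))) (H.inv_mem hk'),
        (Subgroup.mem_centralizer_singleton_iff.2 ?_ :
          _ ∈ Subgroup.centralizer ({h} : Set G))⟩
      have h3 := hPh y hy
      have e2 : k' * (g * h * g⁻¹) * k'⁻¹ = h := hkh
      calc k' * (g * y * g⁻¹) * k'⁻¹ * h
          = k' * (g * y * g⁻¹) * k'⁻¹ * (k' * (g * h * g⁻¹) * k'⁻¹) := by rw [e2]
        _ = k' * (g * (y * h) * g⁻¹) * k'⁻¹ := by group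
        _ = k' * (g * (h * y) * g⁻¹) * k'⁻¹ := by rw [h3]
        _ = (k' * (g * h * g⁻¹) * k'⁻¹) * (k' * (g * y * g⁻¹) * k'⁻¹) := by group
        _ = _ := by rw [e2]
    have h4 := Subgroup.card_dvd_of_le hle
    have h5 : Nat.card (P.map (MulAut.conj (k' * g)).toMonoidHom) = Nat.card P :=
      Nat.card_congr (P.equivMapOfInjective _ (MulAut.conj (k' * g)).injective).symm.toEquiv
    rw [h5, hPcard] at h4
    exact hkP.trans h4
  · exact Nat.dvd_gcd (Subgroup.card_dvd_of_le inf_le_right) (Subgroup.card_dvd_of_le inf_le_left)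

/-- lower bound for the size of a section -/
theorem section_card_ge (hHall : Nat.Coprime (Nat.card H) H.index)
    (hfus : ∀ x ∈ H, ∀ y ∈ H, IsConj x y → ∃ h ∈ H, h * x * h⁻¹ = y)
    (helem : ∀ (E : Subgroup G) (p : ℕ), p.Prime → IsElementary p E →
      Nat.card E ∣ Nat.card H → ∃ g : G, E.map (MulAut.conj g).toMonoidHom ≤ H)
    (h : H) :
    Nat.card G * Nat.card {y : H // IsConj h y} ≤
      Nat.card {x : G // InSec H.index (Nat.card H) (h : G) x} * Nat.card H := by
  classical
  set C := Subgroup.centralizer ({(h : G)} : Set G) with hC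
  set m := H.index with hm
  set n := Nat.card H with hn
  have hmn : Nat.card G = m * n := by rw [hm, hn, mul_comm, H.card_mul_index]
  have hcop : Nat.Coprime m n := hHall.symm
  have hCG : Nat.card C ∣ m * n := by rw [← hmn]; exact C.card_subgroup_dvd_card
  have hCmn : Nat.card C = Nat.gcd (Nat.card C) m * Nat.gcd (Nat.card C) n := by
    rw [← Nat.Coprime.gcd_mul _ hcop]
    exact (Nat.gcd_eq_left hCG).symm
  have hCcop : Nat.Coprime (Nat.gcd (Nat.card C) m) (Nat.gcd (Nat.card C) n) :=
    Nat.Coprime.coprime_dvd_left (Nat.gcd_dvd_right _ _)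
      (Nat.Coprime.coprime_dvd_right (Nat.gcd_dvd_right _ _) hcop)
  have hreg := card_regular_ge hCmn hCcop
  have hcopiff : ∀ u : C, Nat.Coprime (orderOf u) (Nat.gcd (Nat.card C) n) →
      Nat.Coprime (orderOf (u : G)) n := by
    intro u hu
    rw [Subgroup.orderOf_coe]
    have h1 : Nat.gcd (orderOf u) n ∣ Nat.gcd (orderOf u) (Nat.gcd (Nat.card C) n) :=
      Nat.dvd_gcd (Nat.gcd_dvd_left _ _)
        (Nat.dvd_gcd ((Nat.gcd_dvd_left _ _).trans (orderOf_dvd_natCard u)) (Nat.gcd_dvd_right _ _))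
    rw [hu] at h1
    exact Nat.dvd_one.1 h1
  have hhm : Nat.Coprime (orderOf (h : G)) m := by
    rw [Subgroup.orderOf_coe]
    exact Nat.Coprime.coprime_dvd_left (orderOf_dvd_natCard h) hHall
  have hoc : ∀ g z : G, orderOf (g * z * g⁻¹) = orderOf z := fun g z =>
    orderOf_injective (MulAut.conj g).toMonoidHom (MulAut.conj g).injective z
  -- the injection
  let F : (G ⧸ C) × {u : C // Nat.Coprime (orderOf u) (Nat.gcd (Nat.card C) n)} →
      {x : G // InSec m n (h : G) x} := fun z =>
    ⟨z.1.out * ((z.2.1 : G) * h) * z.1.out⁻¹, inSec_conj _ ⟨h, IsConj.refl _, z.2.1, rfl,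
      Subgroup.mem_centralizer_singleton_iff.1 z.2.1.2, hcopiff _ z.2.2, hhm⟩⟩
  have hF : Function.Injective F := by
    rintro ⟨c, ⟨u, hu⟩⟩ ⟨c', ⟨u', hu'⟩⟩ hcc
    have h1 : c.out * ((u : G) * h) * c.out⁻¹ = c'.out * ((u' : G) * h) * c'.out⁻¹ :=
      congrArg Subtype.val hcc
    have hcu : Commute (u : G) h := Subgroup.mem_centralizer_singleton_iff.1 u.2
    have hcu' : Commute (u' : G) h := Subgroup.mem_centralizer_singleton_iff.1 u'.2
    have hconj : ∀ (g : G) {a b : G}, Commute a b → Commute (g * a * g⁻¹) (g * b * g⁻¹) := by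
      intro g a b hab
      show g * a * g⁻¹ * (g * b * g⁻¹) = g * b * g⁻¹ * (g * a * g⁻¹)
      calc g * a * g⁻¹ * (g * b * g⁻¹) = g * (a * b) * g⁻¹ := by group
        _ = g * (b * a) * g⁻¹ := by rw [hab.eq]
        _ = _ := by group
    have h2 := part_unique hmn hcop (hconj c.out hcu) (hconj c'.out hcu')
      (by rw [hoc]; exact hcopiff u hu) (by rw [hoc]; exact hhm)
      (by rw [hoc]; exact hcopiff u' hu') (by rw [hoc]; exact hhm) (by
        calc c.out * u * c.out⁻¹ * (c.out * h * c.out⁻¹) = c.out * ((u : G) * h) * c.out⁻¹ := by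
              group
          _ = c'.out * ((u' : G) * h) * c'.out⁻¹ := h1
          _ = _ := by group)
    have h3 : c = c' := by
      rw [← QuotientGroup.out_eq' c, ← QuotientGroup.out_eq' c']
      rw [QuotientGroup.eq]
      refine (Subgroup.mem_centralizer_singleton_iff.2 ?_ :
        _ ∈ Subgroup.centralizer ({(h : G)} : Set G))
      calc c.out⁻¹ * c'.out * h = c.out⁻¹ * (c'.out * h * c'.out⁻¹) * c'.out := by group
        _ = c.out⁻¹ * (c.out * h * c.out⁻¹) * c'.out := by rw [h2]
        _ = _ := by group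
    subst h3
    have h4 : (u : G) = u' := by
      have h5 : c.out⁻¹ * (c.out * ((u : G) * h) * c.out⁻¹) * c.out * (h : G)⁻¹ =
          c.out⁻¹ * (c.out * ((u' : G) * h) * c.out⁻¹) * c.out * (h : G)⁻¹ := by rw [h1]
      calc (u : G) = c.out⁻¹ * (c.out * ((u : G) * h) * c.out⁻¹) * c.out * (h : G)⁻¹ := by group
        _ = c.out⁻¹ * (c.out * ((u' : G) * h) * c.out⁻¹) * c.out * (h : G)⁻¹ := h5
        _ = u' := by group
    have h5 : u = u' := Subtype.ext h4
    subst h5
    rfl
  have h1 := Nat.card_le_card_of_injective F hF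
  rw [Nat.card_prod] at h1
  have h2 : Nat.card (G ⧸ C) * Nat.gcd (Nat.card C) m ≤
      Nat.card {x : G // InSec m n (h : G) x} := le_trans (Nat.mul_le_mul_left _ hreg) h1
  -- the centralizer in `H`
  have h3 := hall_centralizer hHall hfus helem h.2
  rw [← hC, ← hn] at h3
  have h4 : Nat.card {y : H // IsConj h y} * Nat.card ↥(H ⊓ C) = n := by
    rw [hn, ← card_isConj_mul_card_centralizer h]
    congr 1
    have h5 : (H ⊓ C) = (Subgroup.centralizer ({h} : Set H)).map H.subtype := by
      ext y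
      constructor
      · rintro ⟨hy1, hy2⟩
        refine ⟨⟨y, hy1⟩, Subgroup.mem_centralizer_singleton_iff.2 (Subtype.ext ?_), rfl⟩
        exact Subgroup.mem_centralizer_singleton_iff.1 hy2
      · rintro ⟨y, hy, rfl⟩
        exact ⟨y.2, Subgroup.mem_centralizer_singleton_iff.2
          (congrArg Subtype.val (Subgroup.mem_centralizer_singleton_iff.1 hy))⟩
    rw [h5]
    exact Nat.card_congr ((Subgroup.centralizer ({h} : Set H)).equivMapOfInjective H.subtype
      H.subtype_injective).symm.toEquiv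
  have h5 : Nat.card G = Nat.card (G ⧸ C) * Nat.gcd (Nat.card C) m * Nat.card ↥(H ⊓ C) := by
    rw [← h3, mul_assoc, ← hCmn]
    exact (C.index_mul_card).symm
  calc Nat.card G * Nat.card {y : H // IsConj h y}
      = (Nat.card (G ⧸ C) * Nat.gcd (Nat.card C) m) *
        (Nat.card {y : H // IsConj h y} * Nat.card ↥(H ⊓ C)) := by rw [h5]; ring
    _ = (Nat.card (G ⧸ C) * Nat.gcd (Nat.card C) m) * n := by rw [h4]
    _ ≤ _ := Nat.mul_le_mul_right _ h2

/-- Brauer's theorem -/
theorem brauer_normal_complement (hHall : Nat.Coprime (Nat.card H) H.index)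
    (hfus : ∀ x ∈ H, ∀ y ∈ H, IsConj x y → ∃ h ∈ H, h * x * h⁻¹ = y)
    (helem : ∀ (E : Subgroup G) (p : ℕ), p.Prime → IsElementary p E →
      Nat.card E ∣ Nat.card H → ∃ g : G, E.map (MulAut.conj g).toMonoidHom ≤ H) :
    ∃ K : Subgroup G, K.Normal ∧ K ⊔ H = ⊤ ∧ K ⊓ H = ⊥ := by
  classical
  haveI := Fintype.ofFinite G
  haveI := Fintype.ofFinite H
  haveI := Fintype.ofFinite (ConjClasses H)
  haveI := Fintype.ofFinite (IrrCharacter H)
  set m := H.index with hm
  set n := Nat.card H with hn
  have hmn : Nat.card G = m * n := by rw [hm, hn, mul_comm, H.card_mul_index]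
  have hcop : Nat.Coprime m n := hHall.symm
  -- the representative
  have hex : ∀ x : G, ∃ h : H, InSec m n (h : G) x := by
    intro x
    obtain ⟨u, v, hx, huv, hu, hv⟩ := exists_parts hmn hcop x
    obtain ⟨p, hp, hel⟩ := isElementary_zpowers v
    obtain ⟨g, hg⟩ := helem _ p hp hel (by
      rw [Nat.card_zpowers]
      have h1 : orderOf v ∣ m * n := by rw [← hmn]; exact orderOf_dvd_natCard v
      exact hv.dvd_of_dvd_mul_left h1)
    have h1 : g * v * g⁻¹ ∈ H := hg ⟨v, Subgroup.mem_zpowers v, rfl⟩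
    exact ⟨⟨_, h1⟩, v, isConj_iff.2 ⟨g, rfl⟩, u, hx, huv, hu, hv⟩
  choose r hr using hex
  have hkey : ∀ (x : G) (h : H), InSec m n (h : G) x → IsConj (r x) h := by
    intro x h hx
    obtain ⟨v, hv, u, hxu, huv, hu, hv'⟩ := hr x
    obtain ⟨v₂, hv₂, u₂, hxu₂, huv₂, hu₂, hv₂'⟩ := hx
    have h1 := part_unique hmn hcop huv huv₂ hu hv' hu₂ hv₂' (by rw [← hxu, ← hxu₂])
    rw [← h1] at hv₂
    obtain ⟨k, hk, hkk⟩ := hfus _ (r x).2 _ h.2 (hv.symm.trans hv₂)
    exact isConj_iff.2 ⟨⟨k, hk⟩, Subtype.ext hkk⟩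
  have hqiff : ∀ (x : G) (h : H), ConjClasses.mk (r x) = ConjClasses.mk h ↔
      InSec m n (h : G) x := by
    intro x h
    rw [ConjClasses.mk_eq_mk_iff_isConj]
    refine ⟨fun h1 => ?_, hkey x h⟩
    obtain ⟨v, hv, hrest⟩ := hr x
    obtain ⟨c, hc⟩ := isConj_iff.1 h1
    exact ⟨v, hv.trans (isConj_iff.2 ⟨c, congrArg Subtype.val hc⟩), hrest⟩
  let q : G → ConjClasses H := fun x => ConjClasses.mk (r x)
  -- counting
  have hA : ∑ C : ConjClasses H, Nat.card {x : G // q x = C} = Nat.card G := by
    rw [← Nat.card_sigma]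
    exact Nat.card_congr (Equiv.sigmaFiberEquiv q)
  have hB : ∑ C : ConjClasses H, Nat.card {h : H // ConjClasses.mk h = C} = Nat.card H := by
    rw [← Nat.card_sigma]
    exact Nat.card_congr (Equiv.sigmaFiberEquiv _)
  have hle : ∀ C ∈ (Finset.univ : Finset (ConjClasses H)),
      Nat.card G * Nat.card {h : H // ConjClasses.mk h = C} ≤
      Nat.card {x : G // q x = C} * Nat.card H := by
    intro C _
    obtain ⟨h, rfl⟩ := ConjClasses.mk_surjective C
    have h1 := section_card_ge hHall hfus helem h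
    have e1 : Nat.card {y : H // ConjClasses.mk y = ConjClasses.mk h} =
        Nat.card {y : H // IsConj h y} := by
      apply Nat.card_congr
      refine Equiv.subtypeEquivRight fun y => ?_
      rw [ConjClasses.mk_eq_mk_iff_isConj]
      exact isConj_comm
    have e2 : Nat.card {x : G // q x = ConjClasses.mk h} =
        Nat.card {x : G // InSec m n (h : G) x} :=
      Nat.card_congr (Equiv.subtypeEquivRight fun x => hqiff x h)
    rw [e1, e2]; exact h1
  have heq : ∀ C : ConjClasses H, Nat.card G * Nat.card {h : H // ConjClasses.mk h = C} =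
      Nat.card {x : G // q x = C} * Nat.card H := by
    have h1 := (Finset.sum_eq_sum_iff_of_le hle).1 (by
      rw [← Finset.mul_sum, ← Finset.sum_mul, hA, hB])
    exact fun C => h1 C (Finset.mem_univ C)
  have hsum : ∀ F : ConjClasses H → ℂ, (Nat.card H : ℂ) * ∑ x : G, F (q x) =
      Nat.card G * ∑ h : H, F (ConjClasses.mk h) := by
    intro F
    have e1 : ∑ x : G, F (q x) = ∑ C : ConjClasses H, (Nat.card {x : G // q x = C} : ℂ) * F C := by
      rw [← Finset.sum_fiberwise (s := Finset.univ) (g := q)]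
      refine Finset.sum_congr rfl fun C _ => ?_
      rw [Finset.sum_congr rfl (g := fun _ => F C) (fun x hx => by
        rw [(Finset.mem_filter.1 hx).2]), Finset.sum_const, nsmul_eq_mul,
        Nat.card_eq_fintype_card, Fintype.card_subtype]
    have e2 : ∑ h : H, F (ConjClasses.mk h) =
        ∑ C : ConjClasses H, (Nat.card {h : H // ConjClasses.mk h = C} : ℂ) * F C := by
      rw [← Finset.sum_fiberwise (s := Finset.univ) (g := fun h : H => ConjClasses.mk h)]
      refine Finset.sum_congr rfl fun C _ => ?_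
      rw [Finset.sum_congr rfl (g := fun _ => F C) (fun x hx => by
        rw [(Finset.mem_filter.1 hx).2]), Finset.sum_const, nsmul_eq_mul,
        Nat.card_eq_fintype_card, Fintype.card_subtype]
    rw [e1, e2, Finset.mul_sum, Finset.mul_sum]
    refine Finset.sum_congr rfl fun C _ => ?_
    have e3 : ((Nat.card G * Nat.card {h : H // ConjClasses.mk h = C} : ℕ) : ℂ) =
      ((Nat.card {x : G // q x = C} * Nat.card H : ℕ) : ℂ) := by rw [heq C]
    push_cast at e3
    linear_combination (-F C) * e3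
  -- inner products
  have hH0 : (Nat.card H : ℂ) ≠ 0 := card_ne_zeroC
  have hG0 : (Nat.card G : ℂ) ≠ 0 := card_ne_zeroC
  have hinner : ∀ φ ψ : H → ℂ, IsClassFunction H φ → IsClassFunction H ψ →
      classInner (fun x : G => φ (r x)) (fun x : G => ψ (r x)) = classInner φ ψ := by
    intro φ ψ hφ hψ
    have hout : ∀ (θ : H → ℂ), IsClassFunction H θ → ∀ h : H,
        θ (Quotient.out (ConjClasses.mk h)) = θ h := by
      intro θ hθ h
      apply classFun_isConj hθ
      rw [← ConjClasses.mk_eq_mk_iff_isConj]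
      exact Quotient.out_eq _
    have h1 := hsum (fun C => φ (Quotient.out C) * conj (ψ (Quotient.out C)))
    simp only [q, hout φ hφ, hout ψ hψ] at h1
    rw [classInner, classInner]
    field_simp
    linear_combination h1
  -- the extended characters
  have hgen : ∀ φ : IrrCharacter H, IsGeneralizedCharacter G (fun x : G => (φ : H → ℂ) (r x)) := by
    intro φ
    apply brauer_char
    · intro x g
      apply classFun_isConj (irr_classFun φ.2)
      exact (hkey _ _ (inSec_conj g (hr x)))
    · intro E p hp hEp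
      have hEG : Nat.card E ∣ m * n := by rw [← hmn]; exact E.card_subgroup_dvd_card
      have hab : Nat.card E = Nat.gcd (Nat.card E) m * Nat.gcd (Nat.card E) n := by
        rw [← Nat.Coprime.gcd_mul _ hcop]
        exact (Nat.gcd_eq_left hEG).symm
      have hc : Nat.Coprime (Nat.gcd (Nat.card E) m) (Nat.gcd (Nat.card E) n) :=
        Nat.Coprime.coprime_dvd_left (Nat.gcd_dvd_right _ _)
          (Nat.Coprime.coprime_dvd_right (Nat.gcd_dvd_right _ _) hcop)
      obtain ⟨P, Q, hP, hQ, hPQ, hcomm⟩ := elementary_split hp hEp hab hc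
      have hcop' : Nat.Coprime (Nat.card P) (Nat.card Q) := by rw [hP, hQ]; exact hc
      let e := splitEquiv hPQ hcomm hcop'
      have hQcard : Nat.card (Q.map E.subtype) = Nat.card Q :=
        Nat.card_congr (Q.equivMapOfInjective E.subtype E.subtype_injective).symm.toEquiv
      obtain ⟨g, hg⟩ := helem (Q.map E.subtype) p hp
        (isElementary_map E Q (isElementary_subgroup hp hEp Q)) (by
          rw [hQcard, hQ]; exact Nat.gcd_dvd_right _ _)
      have hgQ : ∀ y : Q, g * ((y : E) : G) * g⁻¹ ∈ H := fun y => hg ⟨_, ⟨y, y.2, rfl⟩, rfl⟩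
      let c : Q →* H := {
        toFun := fun y => ⟨g * ((y : E) : G) * g⁻¹, hgQ y⟩
        map_one' := Subtype.ext (by simp)
        map_mul' := fun a b => Subtype.ext (by
          show g * (((a : E) : G) * ((b : E) : G)) * g⁻¹ =
            (g * ((a : E) : G) * g⁻¹) * (g * ((b : E) : G) * g⁻¹)
          group) }
      let π : E →* H := (c.comp (MonoidHom.snd P Q)).comp e.symm.toMonoidHom
      have hfun : (fun z : E => (φ : H → ℂ) (r (z : G))) = fun z : E => (φ : H → ℂ) (π z) := by
        ext z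
        obtain ⟨⟨x, y⟩, rfl⟩ := e.surjective z
        have hπ : π (e (x, y)) = c y := by
          show c (e.symm (e (x, y))).2 = c y
          rw [MulEquiv.symm_apply_apply]
        rw [hπ]
        apply classFun_isConj (irr_classFun φ.2)
        apply hkey
        have hx : Nat.Coprime (orderOf ((x : E) : G)) n := by
          have h2 : orderOf ((x : E) : G) ∣ Nat.card P := by
            rw [Subgroup.orderOf_coe, Subgroup.orderOf_coe]; exact orderOf_dvd_natCard x
          rw [hP] at h2
          exact Nat.Coprime.coprime_dvd_left (h2.trans (Nat.gcd_dvd_right _ _)) hcop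
        have hy : Nat.Coprime (orderOf ((y : E) : G)) m := by
          have h2 : orderOf ((y : E) : G) ∣ Nat.card Q := by
            rw [Subgroup.orderOf_coe, Subgroup.orderOf_coe]; exact orderOf_dvd_natCard y
          rw [hQ] at h2
          exact Nat.Coprime.coprime_dvd_left (h2.trans (Nat.gcd_dvd_right _ _)) hcop.symm
        exact ⟨((y : E) : G), isConj_iff.2 ⟨g, rfl⟩, ((x : E) : G), rfl,
          congrArg (fun z : E => (z : G)) (hcomm x x.2 y y.2), hx, hy⟩
      rw [hfun]
      exact isGen_of_char (isChar_comp (irr_isChar φ.2) π)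
  have hr1 : ∀ h : H, IsConj (r (h : G)) h := by
    intro h
    apply hkey
    refine ⟨h, IsConj.refl _, 1, by simp, Commute.one_left _, ?_, ?_⟩
    · rw [orderOf_one]; exact Nat.coprime_one_left n
    · rw [Subgroup.orderOf_coe]
      exact Nat.Coprime.coprime_dvd_left (orderOf_dvd_natCard h) hHall
  have hrH : ∀ (φ : IrrCharacter H) (h : H), (φ : H → ℂ) (r (h : G)) = (φ : H → ℂ) h :=
    fun φ h => classFun_isConj (irr_classFun φ.2) (hr1 h)
  have hirr : ∀ φ : IrrCharacter H, IsIrrCharacter G (fun x : G => (φ : H → ℂ) (r x)) := by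
    intro φ
    refine isIrr_of_gen (hgen φ) ?_ ?_
    · rw [hinner _ _ (irr_classFun φ.2) (irr_classFun φ.2), classInner_self_of_irr φ.2]
    · have h1 := hrH φ 1
      have h2 : ((1 : H) : G) = 1 := rfl
      rw [h2] at h1
      obtain ⟨k, hk, hk1⟩ := irr_one_eq_nat φ.2
      rw [h1, hk1]; simpa using hk
  -- the kernel
  let K : Subgroup G := ⨅ φ : IrrCharacter H, H27.charKer (irr_isChar (hirr φ))
  have hKn : K.Normal := Subgroup.normal_iInf_normal fun φ => H27.charKer_normal _
  have hKmem : ∀ x, x ∈ K ↔ r x = 1 := by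
    intro x
    rw [Subgroup.mem_iInf]
    have h1' : ∀ φ : IrrCharacter H, (φ : H → ℂ) (r (1 : G)) = (φ : H → ℂ) 1 := fun φ => by
      have := hrH φ 1
      exact this
    constructor
    · intro h1
      have h2 : ∀ φ : IrrCharacter H, (φ : H → ℂ) (r x) = (φ : H → ℂ) 1 := by
        intro φ
        have := (H27.mem_charKer _).1 (h1 φ)
        rw [← h1' φ]; exact this
      by_contra hne
      have h3 := sum_degree_mul (G := H) (r x)
      have h4 := sum_degree_mul (G := H) 1
      rw [if_neg hne] at h3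
      rw [if_pos rfl] at h4
      rw [Finset.sum_congr rfl fun φ _ => by rw [h2 φ]] at h3
      rw [h4] at h3
      exact hH0 h3
    · intro h1 φ
      rw [H27.mem_charKer]
      show (φ : H → ℂ) (r x) = (φ : H → ℂ) (r 1)
      rw [h1, h1' φ]
  have hKcard : Nat.card K = H.index := by
    have h1 := heq (ConjClasses.mk 1)
    have e1 : Nat.card {h : H // ConjClasses.mk h = ConjClasses.mk 1} = 1 := by
      rw [Nat.card_eq_one_iff_unique]
      refine ⟨⟨?_⟩, ⟨⟨1, rfl⟩⟩⟩
      rintro ⟨a, ha⟩ ⟨b, hb⟩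
      rw [ConjClasses.mk_eq_mk_iff_isConj] at ha hb
      apply Subtype.ext
      show a = b
      rw [isConj_one_left.1 ha, isConj_one_left.1 hb]
    have e2 : Nat.card {x : G // q x = ConjClasses.mk 1} = Nat.card K := by
      apply Nat.card_congr
      refine Equiv.subtypeEquivRight fun x => ?_
      rw [hKmem, ConjClasses.mk_eq_mk_iff_isConj]
      exact ⟨fun h => isConj_one_left.1 h, fun h => h ▸ IsConj.refl _⟩
    rw [e1, e2, mul_one, ← H.card_mul_index, mul_comm] at h1
    exact (Nat.eq_of_mul_eq_mul_right Nat.card_pos h1).symm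
  have hinf : K ⊓ H = ⊥ := by
    rw [eq_bot_iff]
    rintro x ⟨hxK, hxH⟩
    have h1 := (hKmem x).1 hxK
    have h2 := hr1 ⟨x, hxH⟩
    have h3 : r ((⟨x, hxH⟩ : H) : G) = 1 := h1
    rw [h3] at h2
    have h4 := isConj_one_left.1 h2.symm
    exact congrArg Subtype.val h4
  refine ⟨K, hKn, ?_, hinf⟩
  have hcompl : Subgroup.IsComplement' K H := by
    apply Subgroup.isComplement'_of_coprime
    · rw [hKcard, mul_comm, H.card_mul_index]
    · rw [hKcard]; exact hcop
  exact hcompl.sup_eq_top

end main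

end Cfsg.Agent.H3
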