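import Cfsg.Agent.H3.GoingDown
import Cfsg.Agent.H3.PFaithful
import Cfsg.Agent.H3.PrimChar
import Cfsg.Agent.H3.Perm
import Cfsg.Agent.H3.BurnsidePQ
import Cfsg.Prelude.Def_Transfer

/-!
# Characters of extraspecial groups (helper3)
-/

set_option autoImplicit false
set_option linter.style.haveILetI false
set_option linter.unusedSimpArgs false
set_option linter.unusedSectionVars false
set_option linter.unusedVariables false
open Cfsg
open scoped ComplexConjugate commutatorElement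

namespace Cfsg.Agent.H3

universe u v w

section

variable {P : Type u} [Group P]

theorem vanish_of_center {θ : P → ℂ} (hθ : IsClassFunction P θ)
    (hc : commutator P ≤ Subgroup.center P) {μ : P → ℂ}
    (hμ : ∀ x : P, ∀ z ∈ Subgroup.center P, θ (x * z) = μ z * θ x)
    (hμ1 : ∀ z ∈ Subgroup.center P, z ≠ 1 → μ z ≠ 1) {x : P} (hx : x ∉ Subgroup.center P) :
    θ x = 0 := by
  rw [Subgroup.mem_center_iff] at hx
  push Not at hx
  obtain ⟨y, hy⟩ := hx
  have h1 : x⁻¹ * (y * x * y⁻¹) ∈ Subgroup.center P := by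
    apply hc
    have : x⁻¹ * (y * x * y⁻¹) = ⁅x⁻¹, y⁆ := by rw [commutatorElement_def]; group
    rw [this]
    exact Subgroup.commutator_mem_commutator (Subgroup.mem_top _) (Subgroup.mem_top _)
  have h2 : x⁻¹ * (y * x * y⁻¹) ≠ 1 := by
    intro h
    apply hy
    rw [inv_mul_eq_one] at h
    rw [eq_comm, mul_inv_eq_iff_eq_mul] at h
    exact h
  have h3 := hμ x _ h1
  rw [mul_inv_cancel_left, hθ x y] at h3
  have h4 : (μ (x⁻¹ * (y * x * y⁻¹)) - 1) * θ x = 0 := by linear_combination -h3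
  rcases mul_eq_zero.1 h4 with h | h
  · exact absurd (sub_eq_zero.1 h) (hμ1 _ h1 h2)
  · exact h

theorem norm_of_center [Fintype P] {θ : P → ℂ} {p d : ℕ} (hZ : Nat.card (Subgroup.center P) = p)
    (hv : ∀ x, x ∉ Subgroup.center P → θ x = 0)
    (hz : ∀ z ∈ Subgroup.center P, θ z * conj (θ z) = (d : ℂ) ^ 2) :
    (Nat.card P : ℂ) * classInner θ θ = p * (d : ℂ) ^ 2 := by
  classical
  have hP : (Nat.card P : ℂ) ≠ 0 := card_ne_zeroC
  unfold classInner
  rw [← mul_assoc, mul_inv_cancel₀ hP, one_mul]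
  have h1 : ∀ x : P, θ x * conj (θ x) = if x ∈ Subgroup.center P then (d : ℂ) ^ 2 else 0 := by
    intro x
    split_ifs with h
    · exact hz x h
    · rw [hv x h, zero_mul]
  rw [Finset.sum_congr rfl fun x _ => h1 x, ← sum_subgroup_eq (Subgroup.center P)
    (fun _ => (d : ℂ) ^ 2), Finset.sum_const, Finset.card_univ, nsmul_eq_mul,
    ← Nat.card_eq_fintype_card, hZ]

theorem hom_ne_one_of_prime {Z : Type u} [Group Z] [Finite Z] {p : ℕ} (hp : p.Prime)
    (hZ : Nat.card Z = p) (μ : Z →* ℂˣ) (hμ : μ ≠ 1) {z : Z} (hz : z ≠ 1) : μ z ≠ 1 := by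
  intro h
  apply hμ
  haveI : Fact p.Prime := ⟨hp⟩
  ext w
  have h1 : w ∈ Subgroup.zpowers z := by
    rw [zpowers_eq_top_of_prime_card hZ hz]; exact Subgroup.mem_top w
  obtain ⟨k, rfl⟩ := Subgroup.mem_zpowers_iff.1 h1
  rw [map_zpow, h, one_zpow]; rfl

/-- S0893 -/
theorem extraspecial_induced [Fintype P] (p n : ℕ) [hp : Fact p.Prime] (hP : IsExtraspecial p P)
    (hcard : Nat.card P = p ^ (2 * n + 1)) (A : Subgroup P) (hab : ∀ a ∈ A, ∀ b ∈ A, a * b = b * a)
    (hA : Nat.card A = p ^ (n + 1)) (lam : A →* ℂˣ)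
    (hZ : ∃ a : A, (a : P) ∈ Subgroup.center P ∧ lam a ≠ 1) :
    IsIrrCharacter P (indFun A (hf lam)) ∧
      ∀ x : P, x ∉ Subgroup.center P → indFun A (hf lam) x = 0 := by
  classical
  haveI := Fintype.ofFinite A
  obtain ⟨⟨hPp, -, hcom⟩, hZc⟩ := hP
  obtain ⟨a₀, ha₀, hla⟩ := hZ
  have ha₀1 : (a₀ : P) ≠ 1 := by
    intro h
    apply hla
    have : a₀ = 1 := Subtype.ext h
    rw [this, map_one]
  have hZA : Subgroup.center P ≤ A := by
    intro z hz
    have h1 : (⟨z, hz⟩ : Subgroup.center P) ∈ Subgroup.zpowers (⟨a₀, ha₀⟩ : Subgroup.center P) := by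
      rw [zpowers_eq_top_of_prime_card hZc (fun h => ha₀1 (congrArg Subtype.val h))]
      exact Subgroup.mem_top _
    obtain ⟨k, hk⟩ := Subgroup.mem_zpowers_iff.1 h1
    have h2 : z = (a₀ : P) ^ k := (congrArg Subtype.val hk).symm
    rw [h2]
    exact A.zpow_mem a₀.2 k
  let μ : Subgroup.center P →* ℂˣ := lam.comp (Subgroup.inclusion hZA)
  have hμne : μ ≠ 1 := by
    intro h
    apply hla
    exact DFunLike.congr_fun h (⟨a₀, ha₀⟩ : Subgroup.center P)
  -- multiplication by central elements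
  have hmul : ∀ x : P, ∀ z (hz : z ∈ Subgroup.center P), indFun A (hf lam) (x * z) =
      (μ ⟨z, hz⟩ : ℂ) * indFun A (hf lam) x := by
    intro x z hz
    unfold indFun
    rw [mul_left_comm, Finset.mul_sum (a := ((μ ⟨z, hz⟩ : ℂˣ) : ℂ))]
    congr 1
    refine Finset.sum_congr rfl fun y _ => ?_
    have h1 : y⁻¹ * (x * z) * y = y⁻¹ * x * y * z := by
      rw [mul_assoc, mul_assoc, ← Subgroup.mem_center_iff.1 hz y]
      group
    rw [h1]
    by_cases h2 : y⁻¹ * x * y ∈ A
    · rw [extendByZero_mem A _ h2, extendByZero_mem A _ (A.mul_mem h2 (hZA hz))]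
      have h3 : (⟨y⁻¹ * x * y * z, A.mul_mem h2 (hZA hz)⟩ : A) =
          ⟨y⁻¹ * x * y, h2⟩ * ⟨z, hZA hz⟩ := rfl
      rw [h3, hf_apply, hf_apply, map_mul, Units.val_mul, mul_comm]
      rfl
    · have h4 : y⁻¹ * x * y * z ∉ A := by
        intro h5
        apply h2
        have := A.mul_mem h5 (A.inv_mem (hZA hz))
        rwa [mul_inv_cancel_right] at this
      rw [extendByZero_not_mem A _ h2, extendByZero_not_mem A _ h4, mul_zero]
  have hvan : ∀ x : P, x ∉ Subgroup.center P → indFun A (hf lam) x = 0 := by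
    intro x hx
    refine vanish_of_center (indFun_classFun A (hf lam)) hcom.le
      (μ := fun z => if hz : z ∈ Subgroup.center P then (μ ⟨z, hz⟩ : ℂ) else 0) ?_ ?_ hx
    · intro x z hz
      rw [dif_pos hz]
      exact hmul x z hz
    · intro z hz hz1
      rw [dif_pos hz]
      intro h
      exact hom_ne_one_of_prime hp.out hZc μ hμne
        (z := ⟨z, hz⟩) (fun h2 => hz1 (congrArg Subtype.val h2)) (Units.ext h)
  refine ⟨?_, hvan⟩
  have hidx : A.index = p ^ n := by
    have h1 := A.index_mul_card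
    rw [hA, hcard] at h1
    have h2 : p ^ n * p ^ (n + 1) = p ^ (2 * n + 1) := by rw [← pow_add]; congr 1; ring
    rw [← h2] at h1
    exact Nat.eq_of_mul_eq_mul_right (Nat.pow_pos hp.out.pos) h1
  refine isIrr_of_char_norm (isChar_ind A (irr_isChar (isIrr_hf lam))) ?_
  have h1 := norm_of_center (θ := indFun A (hf lam)) (d := p ^ n) hZc hvan (by
    intro z hz
    have h2 := hmul 1 z hz
    rw [one_mul, indFun_one_apply, hf_at_one, mul_one, hidx] at h2
    rw [h2, map_mul, mul_mul_mul_comm]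
    have h3 : ‖((μ ⟨z, hz⟩ : ℂˣ) : ℂ)‖ = 1 := by
      have h4 : (μ ⟨z, hz⟩) ^ Nat.card (Subgroup.center P) = 1 := by
        rw [← map_pow, pow_card_eq_one', map_one]
      have h5 : ((μ ⟨z, hz⟩ : ℂˣ) : ℂ) ^ Nat.card (Subgroup.center P) = 1 := by
        rw [← Units.val_pow_eq_pow_val, h4]; rfl
      exact Complex.norm_eq_one_of_pow_eq_one h5 Nat.card_pos.ne'
    rw [Complex.mul_conj, Complex.normSq_eq_norm_sq, h3]
    simp [pow_two])
  have hPne : (Nat.card P : ℂ) ≠ 0 := card_ne_zeroC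
  apply mul_left_cancel₀ hPne
  rw [h1, hcard, mul_one]
  push_cast
  ring

/-- S0894 -/
theorem extraspecial_degrees [Finite P] (p n : ℕ) [hp : Fact p.Prime] (hP : IsExtraspecial p P)
    (hcard : Nat.card P = p ^ (2 * n + 1)) :
    (∀ χ : IrrCharacter P, (χ : P → ℂ) 1 = 1 ∨ (χ : P → ℂ) 1 = (p : ℂ) ^ n) ∧
      Nat.card {χ : IrrCharacter P // (χ : P → ℂ) 1 = (p : ℂ) ^ n} = p - 1 := by
  classical
  haveI := Fintype.ofFinite P
  haveI := Fintype.ofFinite (IrrCharacter P)
  obtain ⟨⟨hPp, -, hcom⟩, hZc⟩ := hP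
  have hp2 := hp.out.two_le
  have hn : n ≠ 0 := by
    rintro rfl
    -- then `P = Z(P)` is abelian, `P' = 1`
    have h1 : Subgroup.center P = ⊤ := by
      apply Subgroup.eq_top_of_card_eq
      rw [hZc, hcard]; simp
    have h2 : commutator P = ⊥ := by
      rw [commutator_eq_bot_iff_center_eq_top]; exact h1
    rw [← hcom, h2] at hZc
    simp at hZc
    omega
  have hdeg : ∀ χ : IrrCharacter P, (χ : P → ℂ) 1 = 1 ∨ (χ : P → ℂ) 1 = (p : ℂ) ^ n := by
    rintro ⟨χ, hχ⟩
    show χ 1 = 1 ∨ χ 1 = (p : ℂ) ^ n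
    by_cases h1 : χ 1 = 1
    · exact Or.inl h1
    right
    obtain ⟨m, ρ, hρ, rfl⟩ := id hχ
    have hm1 : ρ.character 1 = m := by rw [Representation.char_one]; simp
    have hm0 : m ≠ 0 := by
      rintro rfl
      exact irr_one_ne_zero hχ (by rw [hm1]; simp)
    haveI : Nonempty (Fin m) := ⟨⟨0, Nat.pos_of_ne_zero hm0⟩⟩
    obtain ⟨c, hc⟩ := exists_scalarHom ρ
    have hZs : Subgroup.center P ≤ scalarSubgroup ρ := fun z hz => central_scalar ρ hz
    let μ : Subgroup.center P →* ℂˣ := c.comp (Subgroup.inclusion hZs)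
    have hμ : ∀ z : Subgroup.center P, ρ (z : P) = (μ z : ℂ) • LinearMap.id := fun z =>
      hc (Subgroup.inclusion hZs z)
    have hμne : μ ≠ 1 := by
      intro h
      apply h1
      -- commutators act trivially, so `ρ` has commuting image
      have h2 : ∀ a b : P, ρ a * ρ b = ρ b * ρ a := by
        intro a b
        have h3 : ⁅a, b⁆ ∈ Subgroup.center P := by
          rw [← hcom]
          exact Subgroup.commutator_mem_commutator (Subgroup.mem_top _) (Subgroup.mem_top _)
        have h4 := hμ ⟨_, h3⟩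
        rw [h] at h4
        have h5 : ρ ⁅a, b⁆ = 1 := by rw [h4]; simp; rfl
        have h6 : a * b = ⁅a, b⁆ * (b * a) := by rw [commutatorElement_def]; group
        rw [← map_mul, ← map_mul, h6, map_mul, h5, one_mul]
      -- every element is scalar
      have h3 : ∀ a : P, ∃ c : ℂ, ρ a = c • LinearMap.id := fun a => schur_scalar ρ (ρ a)
        (fun b => h2 a b)
      -- `|χ| = χ(1)` everywhere
      have h4 : ∀ a : P, ρ.character a * conj (ρ.character a) = (m : ℂ) ^ 2 := by
        intro a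
        have ha : a ∈ scalarSubgroup ρ := h3 a
        have h5 := hc ⟨a, ha⟩
        have h6 : ρ.character a = (c ⟨a, ha⟩ : ℂ) * m := by
          show LinearMap.trace ℂ _ (ρ a) = _
          have h7 : ρ a = (c ⟨a, ha⟩ : ℂ) • LinearMap.id := h5
          rw [h7, map_smul, smul_eq_mul, LinearMap.trace_id]
          simp
        have h8 : ‖((c ⟨a, ha⟩ : ℂˣ) : ℂ)‖ = 1 := by
          have h9 : (c ⟨a, ha⟩) ^ Nat.card (scalarSubgroup ρ) = 1 := by
            rw [← map_pow, pow_card_eq_one', map_one]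
          have h10 : ((c ⟨a, ha⟩ : ℂˣ) : ℂ) ^ Nat.card (scalarSubgroup ρ) = 1 := by
            rw [← Units.val_pow_eq_pow_val, h9]; rfl
          exact Complex.norm_eq_one_of_pow_eq_one h10 Nat.card_pos.ne'
        rw [h6, map_mul, mul_mul_mul_comm, Complex.mul_conj, Complex.normSq_eq_norm_sq, h8]
        simp [pow_two]
      have h5 := classInner_self_of_irr hχ
      unfold classInner at h5
      rw [Finset.sum_congr rfl fun a _ => h4 a, Finset.sum_const, Finset.card_univ, nsmul_eq_mul,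
        ← Nat.card_eq_fintype_card, ← mul_assoc, inv_mul_cancel₀ card_ne_zeroC, one_mul] at h5
      have h6 : m ^ 2 = 1 := by exact_mod_cast h5
      have h7 : m = 1 := by
        have := Nat.pow_eq_one.1 h6
        rcases this with h | h
        · exact h
        · omega
      rw [hm1, h7]; simp
    have hmul : ∀ x : P, ∀ z (hz : z ∈ Subgroup.center P), ρ.character (x * z) =
        (μ ⟨z, hz⟩ : ℂ) * ρ.character x := by
      intro x z hz
      show LinearMap.trace ℂ _ (ρ (x * z)) = _ * LinearMap.trace ℂ _ (ρ x)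
      have h2 : ρ z = (μ ⟨z, hz⟩ : ℂ) • LinearMap.id := hμ ⟨z, hz⟩
      have h3 : ρ x * ((μ ⟨z, hz⟩ : ℂ) • (LinearMap.id : (Fin m → ℂ) →ₗ[ℂ] (Fin m → ℂ))) =
          (μ ⟨z, hz⟩ : ℂ) • ρ x := by
        ext v; simp
      rw [map_mul, h2, h3, map_smul, smul_eq_mul]
    have hvan : ∀ x : P, x ∉ Subgroup.center P → ρ.character x = 0 := by
      intro x hx
      refine vanish_of_center (irr_classFun hχ) hcom.le
        (μ := fun z => if hz : z ∈ Subgroup.center P then (μ ⟨z, hz⟩ : ℂ) else 0) ?_ ?_ hx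
      · intro x z hz
        rw [dif_pos hz]
        exact hmul x z hz
      · intro z hz hz1
        rw [dif_pos hz]
        intro h
        exact hom_ne_one_of_prime hp.out hZc μ hμne
          (z := ⟨z, hz⟩) (fun h2 => hz1 (congrArg Subtype.val h2)) (Units.ext h)
    have h2 := norm_of_center (θ := ρ.character) (d := m) hZc hvan (by
      intro z hz
      have h2 := hmul 1 z hz
      rw [one_mul, hm1] at h2
      rw [h2, map_mul, mul_mul_mul_comm]
      have h3 : ‖((μ ⟨z, hz⟩ : ℂˣ) : ℂ)‖ = 1 := by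
        have h4 : (μ ⟨z, hz⟩) ^ Nat.card (Subgroup.center P) = 1 := by
          rw [← map_pow, pow_card_eq_one', map_one]
        have h5 : ((μ ⟨z, hz⟩ : ℂˣ) : ℂ) ^ Nat.card (Subgroup.center P) = 1 := by
          rw [← Units.val_pow_eq_pow_val, h4]; rfl
        exact Complex.norm_eq_one_of_pow_eq_one h5 Nat.card_pos.ne'
      rw [Complex.mul_conj, Complex.normSq_eq_norm_sq, h3]
      simp [pow_two])
    rw [classInner_self_of_irr hχ, mul_one, hcard] at h2
    have h3 : p ^ (2 * n + 1) = p * m ^ 2 := by exact_mod_cast h2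
    have h4 : (p ^ n) ^ 2 = m ^ 2 := by
      apply Nat.eq_of_mul_eq_mul_left hp.out.pos
      rw [← h3]; ring
    have h5 : p ^ n = m := Nat.pow_left_injective (by norm_num : (2 : ℕ) ≠ 0) h4
    rw [hm1, ← h5]; push_cast; rfl
  refine ⟨hdeg, ?_⟩
  have hlin := card_linear_irr (G := P)
  have hidx : (commutator P).index = p ^ (2 * n) := by
    have h1 := (commutator P).index_mul_card
    rw [hcom, hZc, hcard, pow_succ] at h1
    rw [hcom]
    exact Nat.eq_of_mul_eq_mul_right hp.out.pos h1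
  rw [hidx, Nat.card_eq_fintype_card, Fintype.card_subtype] at hlin
  rw [Nat.card_eq_fintype_card, Fintype.card_subtype]
  have hpn : (p : ℂ) ^ n ≠ 1 := by
    intro h
    have h1 : p ^ n = 1 := by exact_mod_cast h
    have h2 : 1 < p ^ n := Nat.one_lt_pow hn hp.out.one_lt
    omega
  have hs := sum_degree_sq (G := P)
  rw [← Finset.sum_filter_add_sum_filter_not Finset.univ
    (fun χ : IrrCharacter P => (χ : P → ℂ) 1 = 1)] at hs
  have h1 : ∑ χ ∈ Finset.univ.filter (fun χ : IrrCharacter P => (χ : P → ℂ) 1 = 1),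
      (χ : P → ℂ) 1 ^ 2 = p ^ (2 * n) := by
    rw [Finset.sum_congr rfl (g := fun _ => (1 : ℂ)) (fun χ hχ => by
      rw [(Finset.mem_filter.1 hχ).2, one_pow]), Finset.sum_const, hlin]
    simp
  have h2 : Finset.univ.filter (fun χ : IrrCharacter P => ¬ (χ : P → ℂ) 1 = 1) =
      Finset.univ.filter (fun χ : IrrCharacter P => (χ : P → ℂ) 1 = (p : ℂ) ^ n) := by
    ext χ
    simp only [Finset.mem_filter, Finset.mem_univ, true_and]
    constructor
    · intro h; exact (hdeg χ).resolve_left h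
    · intro h h'; rw [h'] at h; exact hpn h.symm
  have h3 : ∑ χ ∈ Finset.univ.filter (fun χ : IrrCharacter P => ¬ (χ : P → ℂ) 1 = 1),
      (χ : P → ℂ) 1 ^ 2 = (Finset.univ.filter
        (fun χ : IrrCharacter P => (χ : P → ℂ) 1 = (p : ℂ) ^ n)).card * p ^ (2 * n) := by
    rw [h2, Finset.sum_congr rfl (g := fun _ => ((p : ℂ) ^ n) ^ 2) (fun χ hχ => by
      rw [(Finset.mem_filter.1 hχ).2]), Finset.sum_const, nsmul_eq_mul]
    ring
  rw [h1, h3, hcard] at hs
  have h4 : p ^ (2 * n) + (Finset.univ.filter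
        (fun χ : IrrCharacter P => (χ : P → ℂ) 1 = (p : ℂ) ^ n)).card * p ^ (2 * n) =
        p * p ^ (2 * n) := by
    have : (p : ℂ) ^ (2 * n) + ((Finset.univ.filter
        (fun χ : IrrCharacter P => (χ : P → ℂ) 1 = (p : ℂ) ^ n)).card : ℂ) * p ^ (2 * n) =
        p * p ^ (2 * n) := by
      rw [hs]; push_cast; ring
    exact_mod_cast this
  have h5 : 1 + (Finset.univ.filter
        (fun χ : IrrCharacter P => (χ : P → ℂ) 1 = (p : ℂ) ^ n)).card = p := by
    apply Nat.eq_of_mul_eq_mul_right (Nat.pow_pos hp.out.pos : 0 < p ^ (2 * n))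
    rw [← h4]; ring
  omega

end

end Cfsg.Agent.H3
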