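import Mathlib
import Cfsg.Prelude.Def_Characters
import Cfsg.Prelude.Def_Blocks
import Cfsg.Agent.H27.Kernel
import Cfsg.Agent.H27.Gagola
import Cfsg.Agent.H26.Coef
import Cfsg.Agent.H23.PGroup4
import Cfsg.Agent.H3.Ind
import Cfsg.Agent.H3.Basic2
import Cfsg.Agent.H3.Inflate

/-!
Faithful irreducible characters of groups with central derived subgroup.
-/

set_option autoImplicit false
open scoped commutatorElement ComplexConjugate

namespace Cfsg.Agent.H3

open Cfsg Cfsg.Agent.H27 Cfsg.Agent.H26

universe u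

variable {G : Type u} [Group G] [Finite G]

theorem mem_center' {z : G} (h : z ∈ Subgroup.center G) : ∀ c, z * c = c * z :=
  fun c => (Subgroup.mem_center_iff.mp h c).symm

/-- faithful characters vanish off the center -/
theorem vanish_off_center {θ : G → ℂ} (hθ : IsIrrCharacter G θ) (hf : ∀ x, θ x = θ 1 → x = 1)
    (hc : ∀ x y : G, ⁅x, y⁆ ∈ Subgroup.center G) {x : G} (hx : x ∉ Subgroup.center G) : θ x = 0 := by
  obtain ⟨y, hy⟩ : ∃ y, y * x ≠ x * y := by
    by_contra h
    push Not at h
    exact hx (Subgroup.mem_center_iff.2 h)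
  have h1 := isCharacter_conj (irr_isChar hθ) x y
  have h2 : y * x * y⁻¹ = ⁅y, x⁆ * x := by rw [commutatorElement_def]; group
  rw [h2, irr_mul_lv hθ (mem_center' (hc y x))] at h1
  have h3 : lv ⁅y, x⁆ θ ≠ 1 := by
    intro h
    unfold lv at h
    rw [div_eq_one_iff_eq (irr_one_ne_zero hθ)] at h
    have := hf _ h
    rw [commutatorElement_eq_one_iff_mul_comm] at this
    exact hy this
  have h4 : (lv ⁅y, x⁆ θ - 1) * θ x = 0 := by linear_combination h1
  rcases mul_eq_zero.1 h4 with h | h
  · exact absurd (sub_eq_zero.1 h) h3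
  · exact h

theorem norm_lv {θ : G → ℂ} (hθ : IsIrrCharacter G θ) {z : G} (hz : z ∈ Subgroup.center G) :
    ‖lv z θ‖ = 1 :=
  Complex.norm_eq_one_of_pow_eq_one (lv_pow_eq_one hθ (mem_center' hz) (pow_card_eq_one' (x := z)))
    Nat.card_pos.ne'

theorem degree_sq_eq {θ : G → ℂ} (hθ : IsIrrCharacter G θ) (hf : ∀ x, θ x = θ 1 → x = 1)
    (hc : ∀ x y : G, ⁅x, y⁆ ∈ Subgroup.center G) :
    charDegree θ ^ 2 = (Subgroup.center G).index := by
  classical
  haveI := Fintype.ofFinite G
  have h1 := classInner_self_of_irr hθ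
  unfold classInner at h1
  have hd : θ 1 = (charDegree θ : ℂ) := (charDegree_cast (irr_isChar hθ)).symm
  have h2 : ∀ g : G, θ g * conj (θ g) = if g ∈ Subgroup.center G then ((charDegree θ : ℂ)) ^ 2 else 0 := by
    intro g
    split_ifs with h
    · have h3 := irr_mul_lv hθ (mem_center' h) 1
      rw [mul_one, hd] at h3
      rw [h3, map_mul, Complex.conj_natCast]
      have h4 : lv g θ * conj (lv g θ) = 1 := by
        rw [Complex.mul_conj, Complex.normSq_eq_norm_sq, norm_lv hθ h]; simp
      linear_combination (charDegree θ : ℂ) ^ 2 * h4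
    · rw [vanish_off_center hθ hf hc h]; simp
  simp only [h2] at h1
  rw [Finset.sum_ite, Finset.sum_const_zero, add_zero, Finset.sum_const, nsmul_eq_mul] at h1
  have h5 : (Finset.univ.filter (fun g => g ∈ Subgroup.center G)).card = Nat.card (Subgroup.center G) := by
    rw [Nat.card_eq_fintype_card, Fintype.card_subtype]
  rw [h5] at h1
  have h6 : (Nat.card G : ℂ) ≠ 0 := card_ne_zeroC
  have h7 : ((Nat.card (Subgroup.center G) : ℂ)) * (charDegree θ : ℂ) ^ 2 = Nat.card G := by
    field_simp at h1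
    linear_combination h1
  have h8 : Nat.card (Subgroup.center G) * charDegree θ ^ 2 = Nat.card G := by exact_mod_cast h7
  have h9 := Subgroup.card_mul_index (Subgroup.center G)
  rw [← h9] at h8
  exact Nat.eq_of_mul_eq_mul_left Nat.card_pos h8

/-- the hom from the center -/
noncomputable def lvHom {θ : G → ℂ} (hθ : IsIrrCharacter G θ) : Subgroup.center G →* ℂ where
  toFun z := lv (z : G) θ
  map_one' := lv_one hθ
  map_mul' := by
    intro a b
    have h := irr_mul_lv hθ (mem_center' a.2) (b : G)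
    have h0 := irr_one_ne_zero hθ
    show lv ((a : G) * b) θ = lv (a : G) θ * lv (b : G) θ
    unfold lv at h ⊢
    rw [h]
    ring

theorem lvHom_injective {θ : G → ℂ} (hθ : IsIrrCharacter G θ) (hf : ∀ x, θ x = θ 1 → x = 1) :
    Function.Injective (lvHom hθ) := by
  rw [injective_iff_map_eq_one]
  intro a ha
  apply Subtype.ext
  apply hf
  have : lv (a : G) θ = 1 := ha
  unfold lv at this
  rwa [div_eq_one_iff_eq (irr_one_ne_zero hθ)] at this

theorem center_cyclic {θ : G → ℂ} (hθ : IsIrrCharacter G θ) (hf : ∀ x, θ x = θ 1 → x = 1) :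
    IsCyclic (Subgroup.center G) :=
  isCyclic_of_subgroup_isDomain (lvHom hθ) (lvHom_injective hθ hf)

end Cfsg.Agent.H3
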