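import Mathlib
import Cfsg.Agent.H3.PcharA

/-!
Nonlinear characters of `p`-groups that are Galois conjugate.
-/

set_option autoImplicit false
open scoped commutatorElement ComplexConjugate

namespace Cfsg.Agent.H3

open Cfsg Cfsg.Agent.H27 Cfsg.Agent.H26

universe u

variable {G : Type u} [Group G]

theorem comm_mul_l (a b y : G) : ⁅a * b, y⁆ = a * ⁅b, y⁆ * a⁻¹ * ⁅a, y⁆ := by
  simp only [commutatorElement_def]; group

theorem comm_mul_r (x a b : G) : ⁅x, a * b⁆ = ⁅x, a⁆ * (a * ⁅x, b⁆ * a⁻¹) := by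
  simp only [commutatorElement_def]; group

theorem comm_pow_l {x y : G} (h : Commute x ⁅x, y⁆) (n : ℕ) : ⁅x ^ n, y⁆ = ⁅x, y⁆ ^ n := by
  induction n with
  | zero => simp
  | succ n ih =>
    rw [pow_succ', comm_mul_l, ih, (h.pow_right n).eq, mul_inv_cancel_right, pow_succ]

/-- the preimage of the center modulo `N` -/
def ZN (N : Subgroup G) [N.Normal] : Subgroup G := (Subgroup.center (G ⧸ N)).comap (QuotientGroup.mk' N)

theorem mem_ZN {N : Subgroup G} [N.Normal] {x : G} : x ∈ ZN N ↔ ∀ y, ⁅x, y⁆ ∈ N := by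
  unfold ZN
  rw [Subgroup.mem_comap, Subgroup.mem_center_iff]
  constructor
  · intro h y
    rw [← QuotientGroup.eq_one_iff]
    have := h (QuotientGroup.mk' N y)
    show (QuotientGroup.mk' N) ⁅x, y⁆ = 1
    rw [map_commutatorElement, commutatorElement_eq_one_iff_mul_comm]
    exact this.symm
  · intro h y
    obtain ⟨y, rfl⟩ := QuotientGroup.mk'_surjective N y
    have h1 : (QuotientGroup.mk' N) ⁅x, y⁆ = 1 := (QuotientGroup.eq_one_iff _).2 (h y)
    rw [map_commutatorElement, commutatorElement_eq_one_iff_mul_comm] at h1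
    exact h1.symm

theorem char_data [Finite G] {χ : G → ℂ} (hχ : IsIrrCharacter G χ) {N : Subgroup G} [N.Normal]
    (hN : ∀ x, x ∈ N ↔ χ x = χ 1) (hc : ∀ x y z : G, ⁅⁅x, y⁆, z⁆ ∈ N) :
    charDegree χ ^ 2 = (ZN N).index ∧ ∃ u ∈ ZN N, ∀ z ∈ ZN N, ∃ j : ℕ, ∃ n ∈ N, z = u ^ j * n := by
  obtain ⟨ψ, hψ, h⟩ := exists_quotient_irr (N := N) hχ (fun n hn => (hN n).1 hn)
  have hf : ∀ x, ψ x = ψ 1 → x = 1 := by
    intro x hx
    obtain ⟨x, rfl⟩ := QuotientGroup.mk_surjective x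
    rw [QuotientGroup.eq_one_iff, hN, h x, hx, h 1, QuotientGroup.mk_one]
  have hcc : ∀ x y : G ⧸ N, ⁅x, y⁆ ∈ Subgroup.center (G ⧸ N) := by
    intro x y
    obtain ⟨x, rfl⟩ := QuotientGroup.mk'_surjective N x
    obtain ⟨y, rfl⟩ := QuotientGroup.mk'_surjective N y
    rw [← map_commutatorElement]
    exact mem_ZN.2 (fun z => hc x y z)
  have hd : charDegree χ = charDegree ψ := by
    unfold charDegree
    rw [h 1, QuotientGroup.mk_one]
  constructor
  · rw [hd, degree_sq_eq hψ hf hcc]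
    exact (Subgroup.index_comap_of_surjective _ (QuotientGroup.mk'_surjective N)).symm
  · haveI := center_cyclic hψ hf
    obtain ⟨⟨v, hv⟩, hgen⟩ := IsCyclic.exists_generator (α := Subgroup.center (G ⧸ N))
    obtain ⟨u, rfl⟩ := QuotientGroup.mk'_surjective N v
    refine ⟨u, hv, fun z hz => ?_⟩
    have h1 := hgen ⟨QuotientGroup.mk' N z, hz⟩
    rw [← mem_powers_iff_mem_zpowers] at h1
    obtain ⟨j, hj⟩ := h1
    have hj' : (QuotientGroup.mk' N u) ^ j = QuotientGroup.mk' N z := congrArg Subtype.val hj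
    refine ⟨j, (u ^ j)⁻¹ * z, ?_, by group⟩
    rw [← QuotientGroup.eq_one_iff]
    show QuotientGroup.mk' N ((u ^ j)⁻¹ * z) = 1
    rw [map_mul, map_inv, map_pow, hj', inv_mul_cancel]

/-- the hypothesis -/
def GalHyp (P : Type u) [Group P] [Finite P] : Prop :=
  ∀ χ ψ : Cfsg.IrrCharacter P, Cfsg.charDegree (χ : P → ℂ) ≠ 1 →
    Cfsg.charDegree (χ : P → ℂ) = Cfsg.charDegree (ψ : P → ℂ) →
    ∃ k : ℕ, Nat.Coprime k (Nat.card P) ∧ ∀ g : P, (ψ : P → ℂ) g = (χ : P → ℂ) (g ^ k)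

variable {P : Type u} [Group P] [Finite P]

theorem linear_of_deg {χ : P → ℂ} (hχ : IsIrrCharacter P χ) (h : charDegree χ = 1) {g : P}
    (hg : g ∈ commutator P) : χ g = χ 1 := by
  have h1 : χ 1 = 1 := by
    rw [← charDegree_cast (irr_isChar hχ), h]; simp
  obtain ⟨μ, hμ⟩ := exists_hom_of_one (irr_isChar hχ) h1
  have h2 : commutator P ≤ μ.ker := Abelianization.commutator_subset_ker μ
  have h3 : μ g = 1 := h2 hg
  rw [hμ g, h3, h1]; simp

theorem GalHyp.ker_le (hG : GalHyp P) (χ : IrrCharacter P) (hd : charDegree (χ : P → ℂ) ≠ 1) {g : P}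
    (hg : (χ : P → ℂ) g = (χ : P → ℂ) 1) : g ∈ commutator P := by
  by_contra hgc
  have h1 : (Abelianization.of g : Abelianization P) ≠ 1 := by
    intro h
    apply hgc
    rw [← Abelianization.ker_of]
    exact h
  obtain ⟨φ, hφ⟩ := CommGroup.exists_apply_ne_one_of_hasEnoughRootsOfUnity (Abelianization P) ℂ h1
  let μ : P →* ℂˣ := φ.comp Abelianization.of
  let ψ : IrrCharacter P := ⟨_, isIrr_mul_hom χ.2 μ⟩
  obtain ⟨k, -, hk⟩ := hG χ ψ hd (by
    show charDegree (χ : P → ℂ) = charDegree (fun g => (μ g : ℂ) * (χ : P → ℂ) g)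
    unfold charDegree
    simp only [map_one, Units.val_one, one_mul])
  have h2 := hk g
  have h3 : (χ : P → ℂ) (g ^ k) = (χ : P → ℂ) 1 :=
    (charKer (irr_isChar χ.2)).pow_mem hg k
  rw [h3] at h2
  have h4 : (μ g : ℂ) * (χ : P → ℂ) g = (χ : P → ℂ) 1 := h2
  rw [hg] at h4
  have h5 := irr_one_ne_zero χ.2
  have h6 : (μ g : ℂ) = 1 := by
    have : ((μ g : ℂ) - 1) * (χ : P → ℂ) 1 = 0 := by linear_combination h4
    rcases mul_eq_zero.1 this with h | h
    · exact sub_eq_zero.1 h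
    · exact absurd h h5
  exact hφ (Units.ext h6)

theorem GalHyp.same_ker (hG : GalHyp P) (χ ψ : IrrCharacter P) (hd : charDegree (χ : P → ℂ) ≠ 1)
    (he : charDegree (χ : P → ℂ) = charDegree (ψ : P → ℂ)) {g : P}
    (hg : (χ : P → ℂ) g = (χ : P → ℂ) 1) : (ψ : P → ℂ) g = (ψ : P → ℂ) 1 := by
  obtain ⟨k, -, hk⟩ := hG χ ψ hd he
  have h3 : (χ : P → ℂ) (g ^ k) = (χ : P → ℂ) 1 :=
    (charKer (irr_isChar χ.2)).pow_mem hg k
  rw [hk g, h3, hk 1, one_pow]

theorem GalHyp.quot (hG : GalHyp P) (N : Subgroup P) [N.Normal] : GalHyp (P ⧸ N) := by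
  intro χ ψ hd he
  obtain ⟨k, hk, h⟩ := hG (irrQuotEquiv N χ).1 (irrQuotEquiv N ψ).1 hd he
  refine ⟨k, Nat.Coprime.coprime_dvd_right (Subgroup.card_quotient_dvd_card N) hk, fun g => ?_⟩
  obtain ⟨g, rfl⟩ := QuotientGroup.mk_surjective g
  exact h g

theorem GalHyp.exists_char (hG : GalHyp P) {p : ℕ} [hp : Fact p.Prime] {N : Subgroup P} [N.Normal]
    (hN : N ≤ commutator P) (hc : Nat.card (commutator P) = p * Nat.card N) :
    ∃ χ : IrrCharacter P, charDegree (χ : P → ℂ) ≠ 1 ∧ ∀ x, x ∈ N ↔ (χ : P → ℂ) x = (χ : P → ℂ) 1 := by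
  obtain ⟨g, hg, hgN⟩ : ∃ g ∈ commutator P, g ∉ N := by
    by_contra h
    push Not at h
    have h1 : commutator P = N := le_antisymm h hN
    rw [h1] at hc
    have h2 : 0 < Nat.card N := Nat.card_pos
    have h3 := hp.out.one_lt
    nlinarith
  obtain ⟨χ, hχ, hχg⟩ : ∃ χ : IrrCharacter P, (∀ k ∈ N, (χ : P → ℂ) k = (χ : P → ℂ) 1) ∧
      (χ : P → ℂ) g ≠ (χ : P → ℂ) 1 := by
    by_contra h
    push Not at h
    exact hgN (mem_of_forall_ker h)
  have hd : charDegree (χ : P → ℂ) ≠ 1 := fun h => hχg (linear_of_deg χ.2 h hg)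
  refine ⟨χ, hd, fun x => ⟨hχ x, fun hx => ?_⟩⟩
  set K := charKer (irr_isChar χ.2) with hK
  have hNK : N ≤ K := hχ
  have hKP : K ≤ commutator P := fun y hy => hG.ker_le χ hd hy
  have h1 := Subgroup.card_dvd_of_le hNK
  have h2 := Subgroup.card_dvd_of_le hKP
  rw [hc] at h2
  obtain ⟨m, hm⟩ := h1
  have hN0 : 0 < Nat.card N := Nat.card_pos
  rw [hm, mul_comm p] at h2
  have h3 : m ∣ p := Nat.dvd_of_mul_dvd_mul_left hN0 h2
  rcases (Nat.dvd_prime hp.out).1 h3 with h | h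
  · rw [h, mul_one] at hm
    have := Subgroup.eq_of_le_of_card_ge hNK hm.le
    rw [this]
    exact hx
  · exfalso
    have h4 : K = commutator P := by
      apply Subgroup.eq_of_le_of_card_ge hKP
      rw [hm, hc, h, mul_comm]
    exact hχg (h4 ▸ hg : g ∈ K)

/-- normal subgroups of order `p` are central -/
theorem central_of_card {p : ℕ} [hp : Fact p.Prime] (hP : IsPGroup p P) {N : Subgroup P} [N.Normal]
    (hN : Nat.card N = p) : N ≤ Subgroup.center P := by
  have h1 : N ≠ ⊥ := by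
    rintro rfl
    rw [Subgroup.card_bot] at hN
    exact hp.out.one_lt.ne hN
  have h2 := H23.inf_center_ne_bot hP h1
  have h3 : N ⊓ Subgroup.center P = N := by
    have h4 := Subgroup.card_dvd_of_le (inf_le_left : N ⊓ Subgroup.center P ≤ N)
    rw [hN] at h4
    rcases (Nat.dvd_prime hp.out).1 h4 with h | h
    · exact absurd (Subgroup.card_eq_one.1 h) h2
    · exact Subgroup.eq_of_le_of_card_ge inf_le_left (by rw [h, hN])
  rw [← h3]
  exact inf_le_right

theorem comm_comm_mem {p : ℕ} [hp : Fact p.Prime] (hP : IsPGroup p P) {N : Subgroup P} [N.Normal]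
    (hN : N ≤ commutator P) (hc : Nat.card (commutator P) = p * Nat.card N) (x y z : P) :
    ⁅⁅x, y⁆, z⁆ ∈ N := by
  haveI := Fintype.ofFinite P
  haveI : Fintype (P ⧸ N) := Fintype.ofFinite _
  set f := QuotientGroup.mk' N with hf
  have hfs : Function.Surjective f := QuotientGroup.mk'_surjective N
  have h1 : (commutator P).map f = commutator (P ⧸ N) := by
    rw [commutator_def, Subgroup.map_commutator, ← MonoidHom.range_eq_map, MonoidHom.range_eq_top.mpr hfs]
    rfl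
  have h2 : Nat.card (commutator (P ⧸ N)) = p := by
    have h := card_comap_surjective f hfs (commutator (P ⧸ N))
    rw [← h1, Subgroup.comap_map_eq_self (by rw [QuotientGroup.ker_mk']; exact hN),
      QuotientGroup.ker_mk', hc, mul_comm p] at h
    exact (Nat.eq_of_mul_eq_mul_left Nat.card_pos h).symm ▸ (by rw [h1])
  have h3 := central_of_card (hP.to_quotient N) h2
  have h4 : f ⁅x, y⁆ ∈ Subgroup.center (P ⧸ N) := by
    apply h3
    rw [← h1]
    exact Subgroup.mem_map_of_mem _ (Subgroup.commutator_mem_commutator (Subgroup.mem_top _) (Subgroup.mem_top _))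
  exact mem_ZN.1 h4 z

end Cfsg.Agent.H3
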