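import Mathlib
import Cfsg.Agent.H3.PcharB

/-!
Nonlinear characters of `p`-groups that are Galois conjugate: the parity argument.
-/

set_option autoImplicit false
open scoped commutatorElement ComplexConjugate

namespace Cfsg.Agent.H3

open Cfsg Cfsg.Agent.H27 Cfsg.Agent.H26

universe u

variable {P : Type u} [Group P] [Finite P]

/-- `p`-th powers are central modulo `N` -/
theorem pow_mem_ZN {p : ℕ} [hp : Fact p.Prime] (hP : IsPGroup p P) {N : Subgroup P} [N.Normal]
    (hN : N ≤ commutator P) (hc : Nat.card (commutator P) = p * Nat.card N) (x : P) : x ^ p ∈ ZN N := by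
  rw [mem_ZN]
  intro y
  haveI := Fintype.ofFinite P
  haveI : Fintype (P ⧸ N) := Fintype.ofFinite _
  set f := QuotientGroup.mk' N with hf
  have hfs : Function.Surjective f := QuotientGroup.mk'_surjective N
  have h1 : (commutator P).map f = commutator (P ⧸ N) := by
    rw [commutator_def, Subgroup.map_commutator, ← MonoidHom.range_eq_map, MonoidHom.range_eq_top.mpr hfs]
    rfl
  have h2 : Nat.card (commutator (P ⧸ N)) = p := by
    have h := card_comap_surjective f hfs (commutator (P ⧸ N))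
    rw [← h1, Subgroup.comap_map_eq_self (by rw [QuotientGroup.ker_mk']; exact hN),
      QuotientGroup.ker_mk', hc, mul_comm p] at h
    exact (Nat.eq_of_mul_eq_mul_left Nat.card_pos h).symm ▸ (by rw [h1])
  have h3 := central_of_card (hP.to_quotient N) h2
  have h4 : ⁅f x, f y⁆ ∈ commutator (P ⧸ N) :=
    Subgroup.commutator_mem_commutator (Subgroup.mem_top _) (Subgroup.mem_top _)
  have h5 : Commute (f x) ⁅f x, f y⁆ := Subgroup.mem_center_iff.1 (h3 h4) (f x)
  rw [← QuotientGroup.eq_one_iff]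
  show f ⁅x ^ p, y⁆ = 1
  rw [map_commutatorElement, map_pow, comm_pow_l h5]
  have h6 : (⟨_, h4⟩ : commutator (P ⧸ N)) ^ Nat.card (commutator (P ⧸ N)) = 1 := pow_card_eq_one'
  rw [h2] at h6
  exact congrArg Subtype.val h6

/-- the Frattini subgroup, roughly -/
def BB (p : ℕ) (P : Type u) [Group P] : Subgroup P :=
  ((powMonoidHom p : Abelianization P →* Abelianization P).range).comap Abelianization.of

instance (p : ℕ) : (BB p P).Normal := by
  unfold BB
  haveI : ((powMonoidHom p : Abelianization P →* Abelianization P).range).Normal := inferInstance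
  exact Subgroup.Normal.comap this _

theorem BB_mem {p : ℕ} {x : P} : x ∈ BB p P ↔ ∃ y : P, ∃ c ∈ commutator P, x = y ^ p * c := by
  unfold BB
  rw [Subgroup.mem_comap]
  constructor
  · rintro ⟨y, hy⟩
    obtain ⟨y, rfl⟩ := QuotientGroup.mk_surjective y
    refine ⟨y, (y ^ p)⁻¹ * x, ?_, by group⟩
    rw [← Abelianization.ker_of, MonoidHom.mem_ker, map_mul, map_inv, map_pow, ← hy]
    exact inv_mul_cancel _
  · rintro ⟨y, c, hc, rfl⟩
    refine ⟨Abelianization.of y, ?_⟩
    rw [← Abelianization.ker_of, MonoidHom.mem_ker] at hc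
    rw [map_mul, map_pow, hc, mul_one]
    rfl

theorem card_ZN {p : ℕ} [hp : Fact p.Prime] (hP : IsPGroup p P) {N : Subgroup P} [N.Normal]
    (hN : N ≤ commutator P) (hc : Nat.card (commutator P) = p * Nat.card N) {u : P}
    (huZ : u ∈ ZN N) (hu : ∀ z ∈ ZN N, ∃ j : ℕ, ∃ n ∈ N, z = u ^ j * n) :
    ∃ ε, (ε = 1 ∨ ε = p) ∧ Nat.card (ZN N) = Nat.card (BB p P) * ε := by
  have hPB : commutator P ≤ BB p P := by
    intro x hx
    exact BB_mem.2 ⟨1, x, hx, by simp⟩
  have hcZ : commutator P ≤ ZN N := by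
    intro x hx
    have : commutator P ≤ ZN N := by
      rw [commutator_def, Subgroup.commutator_le]
      intro a _ b _
      exact mem_ZN.2 (comm_comm_mem hP hN hc a b)
    exact this hx
  have hBZ : BB p P ≤ ZN N := by
    intro x hx
    obtain ⟨y, c, hc', rfl⟩ := BB_mem.1 hx
    exact (ZN N).mul_mem (pow_mem_ZN hP hN hc y) (hcZ hc')
  haveI := Fintype.ofFinite P
  haveI : Fintype (P ⧸ BB p P) := Fintype.ofFinite _
  set f := QuotientGroup.mk' (BB p P) with hf
  have hfs : Function.Surjective f := QuotientGroup.mk'_surjective _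
  have h1 : (ZN N).map f = Subgroup.zpowers (f u) := by
    apply le_antisymm
    · rintro _ ⟨z, hz, rfl⟩
      obtain ⟨j, n, hn, rfl⟩ := hu z hz
      have h2 : f n = 1 := (QuotientGroup.eq_one_iff _).2 (hPB (hN hn))
      rw [map_mul, h2, mul_one, map_pow]
      exact Subgroup.npow_mem_zpowers _ _
    · rw [Subgroup.zpowers_le]
      exact Subgroup.mem_map_of_mem _ huZ
  have h2 := card_comap_surjective f hfs ((ZN N).map f)
  rw [Subgroup.comap_map_eq_self (by rw [QuotientGroup.ker_mk']; exact hBZ), QuotientGroup.ker_mk',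
    h1, Nat.card_zpowers] at h2
  have h3 : orderOf (f u) ∣ p := by
    apply orderOf_dvd_of_pow_eq_one
    rw [← map_pow]
    exact (QuotientGroup.eq_one_iff _).2 (BB_mem.2 ⟨u, 1, Subgroup.one_mem _, by rw [mul_one]⟩)
  exact ⟨_, (Nat.dvd_prime hp.out).1 h3, h2⟩

theorem sq_ne {p a b : ℕ} (hp : p.Prime) (hb : b ≠ 0) : a ^ 2 ≠ p * b ^ 2 := by
  intro h
  have h1 : (a ^ 2).factorization p = (p * b ^ 2).factorization p := by rw [h]
  rw [Nat.factorization_mul hp.ne_zero (pow_ne_zero 2 hb), Nat.factorization_pow,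
    Nat.factorization_pow, Finsupp.add_apply, Finsupp.smul_apply, Finsupp.smul_apply,
    hp.factorization_self, smul_eq_mul, smul_eq_mul] at h1
  omega

/-- parity -/
theorem deg_eq_of_two {p : ℕ} [hp : Fact p.Prime] (hP : IsPGroup p P) {N₁ N₂ : Subgroup P} [N₁.Normal]
    [N₂.Normal] (hN1 : N₁ ≤ commutator P) (hN2 : N₂ ≤ commutator P)
    (hc1 : Nat.card (commutator P) = p * Nat.card N₁)
    (hc2 : Nat.card (commutator P) = p * Nat.card N₂) {χ₁ χ₂ : P → ℂ} (h1 : IsIrrCharacter P χ₁)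
    (h2 : IsIrrCharacter P χ₂) (hk1 : ∀ x, x ∈ N₁ ↔ χ₁ x = χ₁ 1) (hk2 : ∀ x, x ∈ N₂ ↔ χ₂ x = χ₂ 1) :
    charDegree χ₁ = charDegree χ₂ := by
  obtain ⟨d1, u1, hu1, hg1⟩ := char_data h1 hk1 (comm_comm_mem hP hN1 hc1)
  obtain ⟨d2, u2, hu2, hg2⟩ := char_data h2 hk2 (comm_comm_mem hP hN2 hc2)
  obtain ⟨e1, he1, hZ1⟩ := card_ZN hP hN1 hc1 hu1 hg1
  obtain ⟨e2, he2, hZ2⟩ := card_ZN hP hN2 hc2 hu2 hg2
  have k1 := Subgroup.card_mul_index (ZN N₁)
  have k2 := Subgroup.card_mul_index (ZN N₂)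
  rw [hZ1, ← d1, ← k2, hZ2, ← d2, mul_assoc, mul_assoc] at k1
  have k3 := Nat.eq_of_mul_eq_mul_left Nat.card_pos k1
  have n1 := (charDegree_pos h1).ne'
  have n2 := (charDegree_pos h2).ne'
  have hsq : charDegree χ₁ ^ 2 = charDegree χ₂ ^ 2 := by
    rcases he1 with rfl | rfl <;> rcases he2 with rfl | rfl
    · simpa using k3
    · rw [one_mul] at k3
      exact absurd k3 (sq_ne hp.out n2)
    · rw [one_mul] at k3
      exact absurd k3.symm (sq_ne hp.out n1)
    · exact Nat.eq_of_mul_eq_mul_left hp.out.pos k3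
  exact Nat.pow_left_injective (n := 2) (by norm_num) hsq

end Cfsg.Agent.H3
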