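import Mathlib
import Cfsg.Agent.H3.PcharC

/-!
Nonlinear characters of `p`-groups that are Galois conjugate: the derived subgroup has not order `p ^ 2`.
-/

set_option autoImplicit false
open scoped commutatorElement ComplexConjugate

namespace Cfsg.Agent.H3

open Cfsg Cfsg.Agent.H27 Cfsg.Agent.H26

universe u

variable {P : Type u} [Group P] [Finite P]

/-- coprime powers generate -/
theorem commute_of_pow {p : ℕ} [hp : Fact p.Prime] (hP : IsPGroup p P) {u x : P} {i : ℕ}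
    (hi : ¬ p ∣ i) (h : Commute x (u ^ i)) : Commute x u := by
  obtain ⟨k, hk⟩ := IsPGroup.iff_orderOf.1 hP u
  have h1 : Nat.Coprime i (orderOf u) := by
    rw [hk]
    exact Nat.Coprime.pow_right k ((Nat.Prime.coprime_iff_not_dvd hp.out).2 hi).symm
  have h2 : u ∈ Subgroup.zpowers (u ^ i) := by
    have := (Nat.Coprime.orderOf_pow (y := u) (m := i) h1.symm)
    have h3 : Subgroup.zpowers (u ^ i) = Subgroup.zpowers u := by
      apply Subgroup.eq_of_le_of_card_ge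
      · rw [Subgroup.zpowers_le]; exact Subgroup.npow_mem_zpowers _ _
      · rw [Nat.card_zpowers, Nat.card_zpowers, this]
    rw [h3]
    exact Subgroup.mem_zpowers u
  obtain ⟨m, hm⟩ := h2
  rw [← hm]
  exact h.zpow_right m

theorem comm_mul_central {u n y : P} (hn : ∀ g, n * g = g * n) (i : ℕ) :
    ⁅u ^ i * n, y⁆ = ⁅u ^ i, y⁆ := by
  have h1 : ⁅n, y⁆ = 1 := commutatorElement_eq_one_iff_mul_comm.2 (hn y)
  rw [comm_mul_l, h1, mul_one, mul_inv_cancel, one_mul]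

structure XD (p : ℕ) (P : Type u) [Group P] [Finite P] (N : Subgroup P) (u : P) : Prop where
  pg : IsPGroup p P
  gal : GalHyp P
  cc : Nat.card (commutator P) = p ^ 2
  hN : N ≤ commutator P
  cN : Nat.card N = p
  cen : ∀ n ∈ N, ∀ g, n * g = g * n
  comm : ∀ w ∈ commutator P, ∀ g : P, ⁅w, g⁆ ∈ N
  pw : ∀ x y : P, ⁅x ^ p, y⁆ ∈ N
  huZ : ∀ y, ⁅u, y⁆ ∈ N
  hu : ∀ z, (∀ y, ⁅z, y⁆ ∈ N) → ∃ j : ℕ, ∃ n ∈ N, z = u ^ j * n
  uniq : ∀ z ∈ commutator P, (∀ g, z * g = g * z) → z ^ p = 1 → z ∈ N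

section
variable {p : ℕ} [hp : Fact p.Prime] {N : Subgroup P} {u : P}

theorem XD.pow_N (h : XD p P N u) {n : P} (hn : n ∈ N) : n ^ p = 1 := by
  have h6 : (⟨n, hn⟩ : N) ^ Nat.card N = 1 := pow_card_eq_one'
  rw [h.cN] at h6
  exact congrArg Subtype.val h6

theorem XD.comm_u_pow (h : XD p P N u) (y : P) (i : ℕ) : ⁅u ^ i, y⁆ = ⁅u, y⁆ ^ i :=
  comm_pow_l (show u * ⁅u, y⁆ = ⁅u, y⁆ * u from (h.cen _ (h.huZ y) u).symm) i

/-- class two case -/
theorem XD.class2 (h : XD p P N u) (h2 : ∀ z ∈ commutator P, ∀ g, z * g = g * z) : False := by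
  obtain ⟨x, y, hxy⟩ : ∃ x y : P, ⁅x, y⁆ ∉ N := by
    by_contra hcon
    push Not at hcon
    have h1 : commutator P ≤ N := by
      rw [commutator_def, Subgroup.commutator_le]
      intro a _ b _
      exact hcon a b
    have h3 := Nat.le_of_dvd Nat.card_pos (Subgroup.card_dvd_of_le h1)
    rw [h.cc, h.cN] at h3
    nlinarith [hp.out.one_lt]
  have hm : ∀ a b : P, ⁅a, b⁆ ∈ commutator P := fun a b =>
    Subgroup.commutator_mem_commutator (Subgroup.mem_top _) (Subgroup.mem_top _)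
  have hc1 : ⁅x, y⁆ ^ p ≠ 1 := fun hh => hxy (h.uniq _ (hm x y) (h2 _ (hm x y)) hh)
  have e1 : ⁅x ^ p, y⁆ = ⁅x, y⁆ ^ p :=
    comm_pow_l (show x * ⁅x, y⁆ = ⁅x, y⁆ * x from (h2 _ (hm x y) x).symm) p
  have e2 : ⁅y ^ p, x⁆ = ⁅y, x⁆ ^ p :=
    comm_pow_l (show y * ⁅y, x⁆ = ⁅y, x⁆ * y from (h2 _ (hm y x) y).symm) p
  have e3 : ⁅y, x⁆ ^ p ≠ 1 := by
    intro hh
    apply hc1
    rw [← commutatorElement_inv, inv_pow, hh, inv_one]
  obtain ⟨i, n, hn, hi⟩ := h.hu (x ^ p) (h.pw x)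
  obtain ⟨j, m, hm', hj⟩ := h.hu (y ^ p) (h.pw y)
  have hpi : ¬ p ∣ i := by
    rintro ⟨k, rfl⟩
    apply hc1
    rw [← e1, hi, comm_mul_central (h.cen n hn), h.comm_u_pow, pow_mul, h.pow_N (h.huZ y), one_pow]
  have hxu : Commute x u := by
    apply commute_of_pow h.pg hpi
    have e4 : u ^ i = x ^ p * n⁻¹ := by rw [hi, mul_inv_cancel_right]
    rw [e4]
    exact (Commute.pow_right (Commute.refl x) p).mul_right
      (show Commute x n from (h.cen n hn x).symm).inv_right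
  apply e3
  rw [← e2, hj, comm_mul_central (h.cen m hm'), h.comm_u_pow,
    commutatorElement_eq_one_iff_mul_comm.2 (show u * x = x * u from hxu.symm.eq), one_pow]

theorem XD.abel (h : XD p P N u) {a b : P} (ha : a ∈ commutator P) (hb : b ∈ commutator P) :
    a * b = b * a := by
  have := IsPGroup.commutative_of_card_eq_prime_sq h.cc (⟨a, ha⟩ : commutator P) ⟨b, hb⟩
  exact congrArg Subtype.val this

theorem XD.gen (h : XD p P N u) {v : P} (hv : v ∈ commutator P) (hvN : v ∉ N) {v' : P}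
    (hv' : v' ∈ commutator P) : ∃ i : ℕ, ∃ n ∈ N, v' = v ^ i * n := by
  haveI : N.Normal := ⟨fun n hn g => by
    have := h.cen n hn g
    rw [← this, mul_inv_cancel_right]; exact hn⟩
  have h1 : Subgroup.zpowers v ⊔ N = commutator P := by
    have h2 : Subgroup.zpowers v ⊔ N ≤ commutator P := sup_le ((Subgroup.zpowers_le).2 hv) h.hN
    have h3 : N < Subgroup.zpowers v ⊔ N := by
      refine lt_of_le_of_ne le_sup_right ?_
      intro hh
      apply hvN
      rw [hh]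
      exact Subgroup.mem_sup_left (Subgroup.mem_zpowers v)
    apply Subgroup.eq_of_le_of_card_ge h2
    have h4 := Subgroup.card_dvd_of_le h2
    rw [h.cc] at h4 ⊢
    obtain ⟨k, hk, hk'⟩ := (Nat.dvd_prime_pow hp.out).1 h4
    have h5 := Set.Finite.card_lt_card (Set.toFinite _) (SetLike.coe_ssubset_coe.2 h3)
    have h6 : Nat.card N < Nat.card (Subgroup.zpowers v ⊔ N : Subgroup P) := h5
    rw [h.cN, hk'] at h6
    rw [hk']
    apply Nat.pow_le_pow_right hp.out.pos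
    by_contra hlt
    push Not at hlt
    have : p ^ k ≤ p ^ 1 := Nat.pow_le_pow_right hp.out.pos (by omega)
    rw [pow_one] at this
    omega
  have h2 : v' ∈ ((Subgroup.zpowers v ⊔ N : Subgroup P) : Set P) := by
    rw [h1]; exact hv'
  rw [Subgroup.mul_normal] at h2
  obtain ⟨a, ha, n, hn, rfl⟩ := Set.mem_mul.1 h2
  have ha' : a ∈ Subgroup.zpowers v := ha
  rw [← mem_powers_iff_mem_zpowers] at ha'
  obtain ⟨i, rfl⟩ := ha'
  exact ⟨i, n, hn, rfl⟩

theorem cmem (a b : P) : ⁅a, b⁆ ∈ commutator P :=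
  Subgroup.commutator_mem_commutator (Subgroup.mem_top _) (Subgroup.mem_top _)

theorem XD.cent_N (h : XD p P N u) {w g₀ : P} (hw : w ∈ commutator P) (hwg : w * g₀ ≠ g₀ * w) {z : P}
    (hz : z ∈ commutator P) (hzc : ∀ g, z * g = g * z) : z ∈ N := by
  by_contra hzN
  obtain ⟨i, n, hn, rfl⟩ := h.gen hz hzN hw
  apply hwg
  have h1 : Commute z g₀ := hzc g₀
  have h2 : Commute n g₀ := h.cen n hn g₀
  exact ((h1.pow_left i).mul_left h2).eq

/-- the centralizer of the derived subgroup -/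
def CC (P : Type u) [Group P] : Subgroup P := Subgroup.centralizer (commutator P : Set P)

theorem mem_CC {c : P} : c ∈ CC P ↔ ∀ v ∈ commutator P, v * c = c * v := Subgroup.mem_centralizer_iff

theorem XD.comm_CC (h : XD p P N u) {w g₀ : P} (hw : w ∈ commutator P) (hwg : w * g₀ ≠ g₀ * w)
    {c c' : P} (hc : c ∈ CC P) (hc' : c' ∈ CC P) : ⁅c, c'⁆ ∈ N := by
  apply h.cent_N hw hwg (cmem c c')
  intro x
  have ha := cmem x c
  have hb := cmem x c'
  have e1 : x * ⁅c, c'⁆ * x⁻¹ = ⁅⁅x, c⁆ * c, ⁅x, c'⁆ * c'⁆ := by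
    simp only [commutatorElement_def]; group
  set a := ⁅x, c⁆ with hadef
  set b := ⁅x, c'⁆ with hbdef
  have k1 : Commute a b := h.abel ha hb
  have k2 : Commute a c' := mem_CC.1 hc' a ha
  have k3 : Commute c b := (mem_CC.1 hc b hb).symm
  have e2 : ⁅a, b * c'⁆ = 1 := commutatorElement_eq_one_iff_mul_comm.2 (k1.mul_right k2).eq
  have e3 : ⁅c, b⁆ = 1 := commutatorElement_eq_one_iff_mul_comm.2 k3.eq
  have e4 : b * ⁅c, c'⁆ * b⁻¹ = ⁅c, c'⁆ := by rw [h.abel hb (cmem c c'), mul_inv_cancel_right]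
  have e5 : a * ⁅c, c'⁆ * a⁻¹ = ⁅c, c'⁆ := by rw [h.abel ha (cmem c c'), mul_inv_cancel_right]
  rw [comm_mul_l, e2, comm_mul_r, e3, one_mul, e4, e5, mul_one] at e1
  rw [mul_inv_eq_iff_eq_mul] at e1
  exact e1.symm

theorem XD.hom_CC (h : XD p P N u) (x : P) {a b : P} (ha : a ∈ CC P) :
    ⁅x, a * b⁆ = ⁅x, a⁆ * ⁅x, b⁆ := by
  rw [comm_mul_r]
  have : a * ⁅x, b⁆ = ⁅x, b⁆ * a := (mem_CC.1 ha _ (cmem x b)).symm
  rw [this, mul_inv_cancel_right]

theorem XD.hom_CC_pow (h : XD p P N u) (x : P) {a : P} (ha : a ∈ CC P) (i : ℕ) :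
    ⁅x, a ^ i⁆ = ⁅x, a⁆ ^ i := by
  induction i with
  | zero => simp
  | succ i ih => rw [pow_succ', h.hom_CC x ha, ih, pow_succ']

theorem XD.index_CC (h : XD p P N u) {w g₀ : P} (hw : w ∈ commutator P) (hwg : w * g₀ ≠ g₀ * w) :
    (CC P).index = p := by
  have hwN : w ∉ N := fun hh => hwg (h.cen w hh g₀)
  have hgw : ∀ g : P, ⁅g, w⁆ ∈ N := by
    intro g
    rw [← commutatorElement_inv]
    exact N.inv_mem (h.comm w hw g)
  let φ : P →* N :=
    { toFun := fun g => ⟨⁅g, w⁆, hgw g⟩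
      map_one' := Subtype.ext (by simp)
      map_mul' := by
        intro a b
        apply Subtype.ext
        show ⁅a * b, w⁆ = ⁅a, w⁆ * ⁅b, w⁆
        rw [comm_mul_l, ← h.cen _ (hgw b) a, mul_inv_cancel_right, h.cen _ (hgw b)] }
  have hker : φ.ker = CC P := by
    ext g
    rw [MonoidHom.mem_ker, mem_CC]
    constructor
    · intro hg v hv
      have h1 : ⁅g, w⁆ = 1 := congrArg Subtype.val hg
      rw [commutatorElement_eq_one_iff_mul_comm] at h1
      obtain ⟨i, n, hn, rfl⟩ := h.gen hw hwN hv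
      have k1 : Commute w g := h1.symm
      have k2 : Commute n g := h.cen n hn g
      exact ((k1.pow_left i).mul_left k2).eq
    · intro hg
      apply Subtype.ext
      show ⁅g, w⁆ = 1
      rw [commutatorElement_eq_one_iff_mul_comm]
      exact (hg w hw).symm
  have h1 : φ.ker.index ∣ p := by
    rw [Subgroup.index_ker, ← h.cN]
    exact Subgroup.card_subgroup_dvd_card _
  rcases (Nat.dvd_prime hp.out).1 h1 with h2 | h2
  · exfalso
    rw [Subgroup.index_eq_one, hker] at h2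
    have h3 : g₀ ∈ CC P := by rw [h2]; exact Subgroup.mem_top _
    exact hwg (mem_CC.1 h3 w hw)
  · rw [← hker]; exact h2

theorem XD.mem_of_CC (h : XD p P N u) [N.Normal] {w g₀ : P} (hw : w ∈ commutator P)
    (hwg : w * g₀ ≠ g₀ * w) {x c : P} (hx : x ∉ CC P) (hc : c ∈ CC P) (hxc : ⁅x, c⁆ ∈ N) :
    ∃ j : ℕ, ∃ n ∈ N, c = u ^ j * n := by
  apply h.hu c
  let K : Subgroup P := (Subgroup.centralizer {QuotientGroup.mk' N c}).comap (QuotientGroup.mk' N)
  have hK : ∀ g, g ∈ K ↔ ⁅c, g⁆ ∈ N := by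
    intro g
    rw [← QuotientGroup.eq_one_iff (N := N) ⁅c, g⁆]
    show QuotientGroup.mk' N g ∈ Subgroup.centralizer {QuotientGroup.mk' N c} ↔
      QuotientGroup.mk' N ⁅c, g⁆ = 1
    rw [map_commutatorElement, commutatorElement_eq_one_iff_mul_comm, Subgroup.mem_centralizer_singleton_iff]
    exact ⟨fun hh => hh.symm, fun hh => hh.symm⟩
  have h1 : CC P < K := by
    refine lt_of_le_of_ne (fun g hg => (hK g).2 (h.comm_CC hw hwg hc hg)) ?_
    intro hh
    apply hx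
    rw [hh, hK, ← commutatorElement_inv]
    exact N.inv_mem hxc
  have h2 := H23.eq_top_of_lt_of_index_prime (h.index_CC hw hwg) h1
  intro y
  rw [← hK, h2]
  exact Subgroup.mem_top _

theorem XD.class3 (h : XD p P N u) [N.Normal] {w g₀ : P} (hw : w ∈ commutator P)
    (hwg : w * g₀ ≠ g₀ * w) : ∀ c ∈ CC P, ∀ c' ∈ CC P, c * c' = c' * c := by
  by_contra hcon
  -- some element of `CC` does not commute with `u`
  obtain ⟨y, hy, hyu⟩ : ∃ y ∈ CC P, ¬ Commute y u := by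
    by_contra hcu
    push Not at hcu
    apply hcon
    have hx : g₀ ∉ CC P := fun hh => hwg (mem_CC.1 hh w hw)
    have key : ∀ c ∈ CC P, ⁅g₀, c⁆ ∈ N → ∀ c' ∈ CC P, Commute c c' := by
      intro c hc hcN c' hc'
      obtain ⟨j, n, hn, rfl⟩ := h.mem_of_CC hw hwg hx hc hcN
      exact (((hcu c' hc').symm).pow_left j).mul_left (h.cen n hn c')
    intro c hc c' hc'
    by_cases hcN : ⁅g₀, c⁆ ∈ N
    · exact (key c hc hcN c' hc').eq
    · obtain ⟨i, n, hn, hi⟩ := h.gen (cmem g₀ c) hcN (cmem g₀ c')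
      have hci : c ^ i ∈ CC P := (CC P).pow_mem hc i
      have h1 : ⁅g₀, c'⁆ = ⁅g₀, c' * (c ^ i)⁻¹⁆ * ⁅g₀, c ^ i⁆ := by
        rw [← h.hom_CC g₀ ((CC P).mul_mem hc' ((CC P).inv_mem hci)), inv_mul_cancel_right]
      have h2 : ⁅g₀, c' * (c ^ i)⁻¹⁆ = n := by
        rw [h.hom_CC_pow g₀ hc, hi, ← h.cen n hn] at h1
        exact (mul_right_cancel h1).symm
      have h3 := key (c' * (c ^ i)⁻¹) ((CC P).mul_mem hc' ((CC P).inv_mem hci)) (by rw [h2]; exact hn) c hc
      have h4 : c' = (c' * (c ^ i)⁻¹) * c ^ i := by rw [inv_mul_cancel_right]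
      have h5 : Commute c' c := by
        rw [h4]
        exact h3.mul_left ((Commute.refl c).pow_left i)
      exact h5.symm.eq
  obtain ⟨j, n, hn, hj⟩ := h.hu w (h.comm w hw)
  by_cases hpj : p ∣ j
  · obtain ⟨k, rfl⟩ := hpj
    apply hwg
    rw [← commutatorElement_eq_one_iff_mul_comm, hj, comm_mul_central (h.cen n hn), h.comm_u_pow,
      pow_mul, h.pow_N (h.huZ g₀), one_pow]
  · apply hyu
    apply commute_of_pow h.pg hpj
    have e4 : u ^ j = w * n⁻¹ := by rw [hj, mul_inv_cancel_right]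
    rw [e4]
    exact (show Commute y w from (mem_CC.1 hy w hw).symm).mul_right
      (show Commute y n from (h.cen n hn y).symm).inv_right

end

end Cfsg.Agent.H3
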