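import Mathlib
import Cfsg.Agent.H3.PcharD

/-!
Nonlinear characters of `p`-groups that are Galois conjugate: main theorem.
-/

set_option autoImplicit false
open scoped commutatorElement ComplexConjugate

namespace Cfsg.Agent.H3

open Cfsg Cfsg.Agent.H27 Cfsg.Agent.H26

universe u

theorem cyclic_sub_eq {A : Type*} [Group A] [Finite A] [IsCyclic A] {p : ℕ} (hp : 0 < p)
    {H K : Subgroup A} (hH : Nat.card H = p) (hK : Nat.card K = p) : H = K := by
  classical
  haveI := Fintype.ofFinite A
  have key : ∀ L : Subgroup A, Nat.card L = p →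
      (Finset.univ.filter (fun a => a ∈ L)) = (Finset.univ.filter (fun a : A => a ^ p = 1)) := by
    intro L hL
    apply Finset.eq_of_subset_of_card_le
    · intro a ha
      simp only [Finset.mem_filter, Finset.mem_univ, true_and] at ha ⊢
      have h6 : (⟨a, ha⟩ : L) ^ Nat.card L = 1 := pow_card_eq_one'
      rw [hL] at h6
      exact congrArg Subtype.val h6
    · have h1 : (Finset.univ.filter (fun a => a ∈ L)).card = p := by
        rw [← hL, Nat.card_eq_fintype_card, Fintype.card_subtype]
      rw [h1]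
      exact IsCyclic.card_pow_eq_one_le hp
  ext a
  have h1 := key H hH
  rw [← key K hK] at h1
  have h2 := Finset.ext_iff.1 h1 a
  simpa using h2

theorem no_sq {P : Type u} [Group P] [Finite P] {p : ℕ} [hp : Fact p.Prime] (hP : IsPGroup p P)
    (hG : GalHyp P) (hc : Nat.card (commutator P) = p ^ 2) : False := by
  obtain ⟨N, hN, hNn, hNc⟩ := H23.exists_normal_card hP (commutator P) 1
    (by rw [hc]; exact Nat.pow_le_pow_right hp.out.pos (by norm_num))
  rw [pow_one] at hNc
  have hc1 : ∀ N' : Subgroup P, Nat.card N' = p → Nat.card (commutator P) = p * Nat.card N' := by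
    intro N' h; rw [h, hc, pow_two]
  obtain ⟨χ, hd, hk⟩ := hG.exists_char hN (hc1 N hNc)
  obtain ⟨hdeg, u, huZ, hu⟩ := char_data χ.2 hk (comm_comm_mem hP hN (hc1 N hNc))
  have hcen := central_of_card hP hNc
  have hNZ : commutator P ≤ ZN N := by
    rw [commutator_def, Subgroup.commutator_le]
    intro a _ b _
    exact mem_ZN.2 (comm_comm_mem hP hN (hc1 N hNc) a b)
  have X : XD p P N u := by
    refine ⟨hP, hG, hc, hN, hNc, fun n hn => mem_center' (hcen hn), fun w hw => mem_ZN.1 (hNZ hw),
      fun x => mem_ZN.1 (pow_mem_ZN hP hN (hc1 N hNc) x), mem_ZN.1 huZ,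
      fun z hz => hu z (mem_ZN.2 hz), ?_⟩
    intro z hz hzc hzp
    by_cases hz1 : z = 1
    · rw [hz1]; exact N.one_mem
    have hzo : orderOf z = p := orderOf_eq_prime hzp hz1
    have hzcen : z ∈ Subgroup.center P := Subgroup.mem_center_iff.2 (fun g => (hzc g).symm)
    haveI hNz : (Subgroup.zpowers z).Normal := by
      constructor
      intro n hn g
      have h1 : n ∈ Subgroup.center P := (Subgroup.zpowers_le.2 hzcen) hn
      rw [Subgroup.mem_center_iff.1 h1 g, mul_inv_cancel_right]
      exact hn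
    have hzc' : Nat.card (Subgroup.zpowers z) = p := by rw [Nat.card_zpowers, hzo]
    have hzle : Subgroup.zpowers z ≤ commutator P := Subgroup.zpowers_le.2 hz
    obtain ⟨ψ, hd', hk'⟩ := hG.exists_char hzle (hc1 _ hzc')
    have he := deg_eq_of_two hP hN hzle (hc1 N hNc) (hc1 _ hzc') χ.2 ψ.2 hk hk'
    rw [hk]
    exact hG.same_ker ψ χ hd' he.symm ((hk' z).1 (Subgroup.mem_zpowers z))
  by_cases h2 : ∀ z ∈ commutator P, ∀ g, z * g = g * z
  · exact X.class2 h2
  · push Not at h2
    obtain ⟨w, hw, g₀, hwg⟩ := h2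
    have hab := X.class3 hw hwg
    have hidx := X.index_CC hw hwg
    obtain ⟨n, hn, hn1⟩ : ∃ n ∈ N, n ≠ 1 := by
      by_contra hcon
      push Not at hcon
      have : N = ⊥ := (Subgroup.eq_bot_iff_forall N).2 hcon
      rw [this, Subgroup.card_bot] at hNc
      exact hp.out.one_lt.ne hNc
    obtain ⟨ψ, hψ⟩ : ∃ ψ : IrrCharacter P, (ψ : P → ℂ) n ≠ (ψ : P → ℂ) 1 := by
      by_contra hcon
      push Not at hcon
      apply hn1
      have := mem_of_forall_ker (K := (⊥ : Subgroup P)) (g := n) (fun ψ _ => hcon ψ)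
      exact Subgroup.mem_bot.1 this
    have hd' : charDegree (ψ : P → ℂ) ≠ 1 := fun hh => hψ (linear_of_deg ψ.2 hh (hN hn))
    have hdegp : ∀ φ : IrrCharacter P, charDegree (φ : P → ℂ) ≠ 1 → charDegree (φ : P → ℂ) = p := by
      intro φ hφ
      haveI := Fintype.ofFinite P
      have h1 : charDegree (φ : P → ℂ) ≤ (CC P).index :=
        irr_degree_le_index φ.2 (charDegree_cast (irr_isChar φ.2)).symm (CC P) hab
      rw [hidx] at h1
      obtain ⟨m, hm⟩ := IsPGroup.iff_card.1 hP
      have h2 := charDegree_dvd_card φ.2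
      rw [hm] at h2
      obtain ⟨k, -, hk⟩ := (Nat.dvd_prime_pow hp.out).1 h2
      rw [hk] at h1 hφ ⊢
      have hk0 : k ≠ 0 := by rintro rfl; exact hφ (pow_zero _)
      have hk1 : k ≤ 1 := by
        by_contra hlt
        push Not at hlt
        have : p ^ 2 ≤ p ^ k := Nat.pow_le_pow_right hp.out.pos hlt
        nlinarith [hp.out.one_lt]
      have : k = 1 := by omega
      rw [this, pow_one]
    have he : charDegree (χ : P → ℂ) = charDegree (ψ : P → ℂ) := by rw [hdegp χ hd, hdegp ψ hd']
    exact hψ (hG.same_ker χ ψ hd he ((hk n).1 hn))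

theorem main_mp {P : Type u} [Group P] [Finite P] {p : ℕ} [hp : Fact p.Prime] (hP : IsPGroup p P)
    (hna : ¬ IsMulCommutative P) (hG : GalHyp P) :
    IsCyclic (Subgroup.center P) ∧ Nat.card (commutator P) = p := by
  have hne : commutator P ≠ ⊥ := by
    intro h
    apply hna
    refine ⟨⟨fun a b => ?_⟩⟩
    have h1 := cmem a b
    rw [h, Subgroup.mem_bot, commutatorElement_eq_one_iff_mul_comm] at h1
    exact h1
  obtain ⟨m, hm⟩ := IsPGroup.iff_card.1 (hP.to_subgroup (commutator P))
  have hm0 : m ≠ 0 := by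
    rintro rfl
    rw [pow_zero] at hm
    exact hne (Subgroup.card_eq_one.1 hm)
  have hm1 : m = 1 := by
    by_contra hm1
    obtain ⟨K, hKP, hKn, hKc⟩ := H23.exists_normal_card hP (commutator P) (m - 2)
      (by rw [hm]; exact Nat.pow_le_pow_right hp.out.pos (by omega))
    haveI := Fintype.ofFinite P
    haveI : Fintype (P ⧸ K) := Fintype.ofFinite _
    have hfs : Function.Surjective (QuotientGroup.mk' K) := QuotientGroup.mk'_surjective K
    have h1 : (commutator P).map (QuotientGroup.mk' K) = commutator (P ⧸ K) := by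
      rw [commutator_def, Subgroup.map_commutator, ← MonoidHom.range_eq_map, MonoidHom.range_eq_top.mpr hfs]
      rfl
    have h2 := card_comap_surjective (QuotientGroup.mk' K) hfs (commutator (P ⧸ K))
    rw [← h1, Subgroup.comap_map_eq_self (by rw [QuotientGroup.ker_mk']; exact hKP),
      QuotientGroup.ker_mk', hm, hKc, h1] at h2
    have h3 : Nat.card (commutator (P ⧸ K)) = p ^ 2 := by
      have h4 : p ^ m = p ^ (m - 2) * p ^ 2 := by rw [← pow_add]; congr 1; omega
      rw [h4] at h2
      exact (Nat.eq_of_mul_eq_mul_left (pow_pos hp.out.pos _) h2).symm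
    exact no_sq (hP.to_quotient K) (hG.quot K) h3
  have hcp : Nat.card (commutator P) = p := by rw [hm, hm1, pow_one]
  refine ⟨?_, hcp⟩
  obtain ⟨χ, -, hk⟩ := hG.exists_char (N := ⊥) bot_le (by rw [hcp, Subgroup.card_bot, mul_one])
  exact center_cyclic χ.2 (fun x hx => Subgroup.mem_bot.1 ((hk x).2 hx))

/-- faithful -/
theorem faithful_of {P : Type u} [Group P] [Finite P] {p : ℕ} [hp : Fact p.Prime] (hP : IsPGroup p P)
    (hcy : IsCyclic (Subgroup.center P)) (hc : Nat.card (commutator P) = p) {χ : P → ℂ}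
    (hχ : IsIrrCharacter P χ) (hd : charDegree χ ≠ 1) : ∀ x, χ x = χ 1 → x = 1 := by
  have hcc := central_of_card hP hc
  set K := charKer (irr_isChar hχ) with hK
  haveI : K.Normal := charKer_normal _
  by_contra hcon
  push Not at hcon
  obtain ⟨x, hx, hx1⟩ := hcon
  have hKne : K ≠ ⊥ := by
    intro h
    apply hx1
    rw [← Subgroup.mem_bot, ← h]
    exact hx
  have h1 := H23.inf_center_ne_bot hP hKne
  obtain ⟨z, hz, hzo⟩ : ∃ z ∈ K ⊓ Subgroup.center P, orderOf z = p := by
    have h2 : p ∣ Nat.card (K ⊓ Subgroup.center P : Subgroup P) := by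
      obtain ⟨m, hm⟩ := IsPGroup.iff_card.1 (hP.to_subgroup (K ⊓ Subgroup.center P))
      have hm0 : m ≠ 0 := by
        rintro rfl
        rw [pow_zero] at hm
        exact h1 (Subgroup.card_eq_one.1 hm)
      rw [hm]
      exact dvd_pow_self p hm0
    obtain ⟨z, hz⟩ := exists_prime_orderOf_dvd_card' p h2
    exact ⟨z, z.2, by rw [Subgroup.orderOf_coe]; exact hz⟩
  -- the subgroup of order `p` of the cyclic center
  have h3 : (Subgroup.zpowers (⟨z, hz.2⟩ : Subgroup.center P)) =
      (commutator P).subgroupOf (Subgroup.center P) := by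
    apply cyclic_sub_eq hp.out.pos
    · rw [Nat.card_zpowers, Subgroup.orderOf_mk, hzo]
    · rw [Nat.card_congr (Subgroup.subgroupOfEquivOfLe hcc).toEquiv, hc]
  -- the commutator subgroup is in the kernel
  have h4 : ∀ g ∈ commutator P, χ g = χ 1 := by
    intro g hg
    have h5 : (⟨g, hcc hg⟩ : Subgroup.center P) ∈ Subgroup.zpowers (⟨z, hz.2⟩ : Subgroup.center P) := by
      rw [h3]; exact hg
    obtain ⟨i, hi⟩ := h5
    have h6 : z ^ i = g := congrArg Subtype.val hi
    rw [← h6]
    exact K.zpow_mem hz.1 i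
  -- hence linear
  apply hd
  obtain ⟨ψ, hψ, h⟩ := exists_quotient_irr (N := commutator P) hχ h4
  have h7 : charDegree ψ = 1 := by
    haveI : IsMulCommutative (P ⧸ commutator P) := ⟨⟨fun a b => by
      obtain ⟨a, rfl⟩ := QuotientGroup.mk_surjective a
      obtain ⟨b, rfl⟩ := QuotientGroup.mk_surjective b
      exact mul_comm (Abelianization.of a) (Abelianization.of b)⟩⟩
    have h8 := irr_degree_le_index hψ (charDegree_cast (irr_isChar hψ)).symm ⊤
      (fun a _ b _ => mul_comm' a b)
    rw [Subgroup.index_top] at h8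
    have h9 := charDegree_pos hψ
    omega
  rw [← h7]
  unfold charDegree
  rw [h 1, QuotientGroup.mk_one]

end Cfsg.Agent.H3
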