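import Mathlib
import Cfsg.Agent.H3.PcharE

/-!
Nonlinear characters of `p`-groups that are Galois conjugate: the converse.
-/

set_option autoImplicit false
open scoped commutatorElement ComplexConjugate

namespace Cfsg.Agent.H3

open Cfsg Cfsg.Agent.H27 Cfsg.Agent.H26

universe u

theorem main_mpr {P : Type u} [Group P] [Finite P] {p : ℕ} [hp : Fact p.Prime] (hP : IsPGroup p P)
    (hna : ¬ IsMulCommutative P)
    (hcy : IsCyclic (Subgroup.center P)) (hc : Nat.card (commutator P) = p) : GalHyp P := by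
  intro χ ψ hd he
  have hcc := central_of_card hP hc
  have hcz : ∀ x y : P, ⁅x, y⁆ ∈ Subgroup.center P := fun x y =>
    hcc (Subgroup.commutator_mem_commutator (Subgroup.mem_top x) (Subgroup.mem_top y))
  have hfχ := faithful_of hP hcy hc χ.2 hd
  have hfψ := faithful_of hP hcy hc ψ.2 (by rw [← he]; exact hd)
  have hnt : Nontrivial P := by
    by_contra h
    rw [not_nontrivial_iff_subsingleton] at h
    exact hna ⟨⟨fun a b => Subsingleton.elim _ _⟩⟩
  obtain ⟨z, hgen⟩ := IsCyclic.exists_generator (α := Subgroup.center P)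
  have hoz : orderOf z = Nat.card (Subgroup.center P) := orderOf_eq_card_of_forall_mem_zpowers hgen
  have hn0 : Nat.card (Subgroup.center P) ≠ 0 := Nat.card_pos.ne'
  have hprim : ∀ {θ : P → ℂ} (hθ : IsIrrCharacter P θ), (∀ x, θ x = θ 1 → x = 1) →
      IsPrimitiveRoot (lv (z : P) θ) (Nat.card (Subgroup.center P)) := by
    intro θ hθ hf
    have h1 : orderOf (lvHom hθ z) = Nat.card (Subgroup.center P) := by
      rw [orderOf_injective (lvHom hθ) (lvHom_injective hθ hf), hoz]
    have h2 := IsPrimitiveRoot.orderOf (lvHom hθ z)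
    rw [h1] at h2
    exact h2
  have hχp := hprim χ.2 hfχ
  have hψp := hprim ψ.2 hfψ
  haveI : NeZero (Nat.card (Subgroup.center P)) := ⟨hn0⟩
  obtain ⟨k, hkl, hk, hkeq⟩ := (hχp.isPrimitiveRoot_iff).1 hψp
  have hpZ : p ∣ Nat.card (Subgroup.center P) := by
    haveI := hP.center_nontrivial
    obtain ⟨m, hm⟩ := IsPGroup.iff_card.1 (hP.to_subgroup (Subgroup.center P))
    have hm0 : m ≠ 0 := by
      rintro rfl
      rw [pow_zero] at hm
      have : 1 < Nat.card (Subgroup.center P) := Finite.one_lt_card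
      omega
    rw [hm]
    exact dvd_pow_self p hm0
  have hpk : Nat.Coprime k p := Nat.Coprime.coprime_dvd_right hpZ hk
  have hkP : Nat.Coprime k (Nat.card P) := by
    obtain ⟨m, hm⟩ := IsPGroup.iff_card.1 hP
    rw [hm]
    exact Nat.Coprime.pow_right m hpk
  refine ⟨k, hkP, fun g => ?_⟩
  by_cases hg : g ∈ Subgroup.center P
  · obtain ⟨j, hj⟩ : ∃ j : ℕ, (z : P) ^ j = g := by
      have h1 := hgen ⟨g, hg⟩
      rw [← mem_powers_iff_mem_zpowers] at h1
      obtain ⟨j, hj⟩ := h1
      exact ⟨j, congrArg Subtype.val hj⟩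
    have hzc := mem_center' z.2
    have h1 : ∀ {θ : P → ℂ} (hθ : IsIrrCharacter P θ) (i : ℕ),
        θ ((z : P) ^ i) = (lv (z : P) θ) ^ i * θ 1 := by
      intro θ hθ i
      have := irr_mul_lv hθ (x := (z : P) ^ i) (mem_center' ((Subgroup.center P).pow_mem z.2 i)) 1
      rw [mul_one] at this
      rw [this, lv_pow hθ hzc]
    rw [← hj, ← pow_mul, h1 ψ.2, h1 χ.2, ← hkeq, ← pow_mul, ← charDegree_cast (irr_isChar χ.2),
      ← charDegree_cast (irr_isChar ψ.2), he, mul_comm k j]
  · rw [vanish_off_center ψ.2 hfψ hcz hg, vanish_off_center χ.2 hfχ hcz]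
    intro h
    apply hg
    obtain ⟨m, hm⟩ := exists_pow_eq_self_of_coprime (x := g) (n := k)
      (Nat.Coprime.coprime_dvd_right (orderOf_dvd_natCard g) hkP)
    rw [← hm]
    exact (Subgroup.center P).pow_mem h m

end Cfsg.Agent.H3
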